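import Cfsg.Agent.H888.C6.MaxOf
import Cfsg.Agent.H377.Types
import Cfsg.Agent.AutOrth.Main
import Cfsg.Agent.LieClassical.OrthFourCommon
import Cfsg.Agent.LieClassical.OrthCenter
import Cfsg.Agent.LieClassical.OrthSimple
import Cfsg.Agent.ClassicalGeometry.OddInvolutions
import Cfsg.Agent.H925.OrthBasic

/-!
# The group `Ω⁺` (helper888)

Scalars, orders, normal subgroups.
-/

set_option autoImplicit false

namespace Cfsg.Agent.H888.C6

open Cfsg Cfsg.Geo Matrix Cfsg.Agent.ClassicalGeometry.SympBasic Cfsg.Agent.H920 Cfsg.Agent.H919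

universe u

section norm

variable {ι : Type} [Fintype ι] [DecidableEq ι] {F : Type u} [Field F] {R : Subgroup (GL ι F)} {k : ℕ}
variable {C : Coord R 2 k} {q : V2 k → ZMod 2} {Y : Subgroup (GL ι F)}

theorem comm_top_of_perfect {G : Type*} [Group G] {P : Subgroup G} (hP : ⁅P, P⁆ = P) : commutator P = ⊤ := by
  rw [eq_top_iff]
  have h1 : (commutator P).map P.subtype = P := by
    rw [commutator_def, Subgroup.map_commutator, ← MonoidHom.range_eq_map, Subgroup.range_subtype, hP]
  intro y _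
  have h2 : (y : G) ∈ (commutator P).map P.subtype := by rw [h1]; exact y.2
  obtain ⟨z, hz, hzy⟩ := h2
  have : z = y := Subtype.ext hzy
  rw [← this]; exact hz

/-- The quasisimple group does not normalise `R`. -/
theorem not_le_norm [Finite F] [Nonempty ι] (T : TC C q) (hk : 1 ≤ k) (hR2 : IsPGroup 2 R) (hY : YCore C q Y)
    {X : Subgroup (GL ι F)} (hYX : Y ≤ X)
    (hqs : ∀ N ≤ X, (∀ g ∈ X, ∀ x ∈ N, g * x * g⁻¹ ∈ N) → N ≤ scalars ι F ∨ N = X) :
    ¬ X ≤ subgroupNormalizer R := by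
  intro hX
  have hv : ∃ v : V2 k, v ≠ 0 :=
    ⟨Pi.single (Sum.inl ⟨0, hk⟩) 1, by
      intro h; have := congrFun h (Sum.inl ⟨0, hk⟩); rw [Pi.single_eq_same] at this; exact z2_ne this⟩
  rcases hqs R (hY.le.trans hYX) (fun g hg x hx => (Subgroup.mem_normalizer_iff.1 (hX hg) x).1 hx) with h | h
  · obtain ⟨v, hv⟩ := hv
    obtain ⟨w, hw⟩ := exists_bf_one hv
    obtain ⟨x, rfl⟩ := C.surj w
    obtain ⟨y, rfl⟩ := C.surj v
    have h1 := comm_sF C x y
    rw [hw, sF_one, neg_smul, one_smul] at h1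
    have h2 : ((x : GL ι F) : Matrix ι ι F) * ((y : GL ι F) : Matrix ι ι F) =
        ((y : GL ι F) : Matrix ι ι F) * ((x : GL ι F) : Matrix ι ι F) := by
      have := H920.scalars_comm (h x.2) (y : GL ι F)
      exact congrArg (fun g : GL ι F => (g : Matrix ι ι F)) this
    rw [h2] at h1
    have h6 : (2 : F) • (((y : GL ι F) : Matrix ι ι F) * ((x : GL ι F) : Matrix ι ι F)) = 0 := by
      rw [two_smul]
      nth_rewrite 1 [h1]
      exact neg_add_cancel _
    have h7 := (smul_eq_zero.1 h6).resolve_left T.two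
    exact ((y : GL ι F) * (x : GL ι F)).ne_zero h7
  · have hYR : Y = R := le_antisymm (hYX.trans h.ge) hY.le
    have hRp : ⁅R, R⁆ = R := by
      have := hY.perfect
      rwa [hYR] at this
    have hfin : Finite (GL ι F) := inferInstance
    have hfR : Finite R := inferInstance
    have : Fact (Nat.Prime 2) := ⟨Nat.prime_two⟩
    have hnil : Group.IsNilpotent R := hR2.isNilpotent
    have hnt : Nontrivial R := by
      obtain ⟨v, hv⟩ := hv
      obtain ⟨x, hx⟩ := C.surj v
      refine ⟨⟨x, 1, ?_⟩⟩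
      rintro rfl
      rw [C.φ_one] at hx
      exact hv hx.symm
    have h1 := Group.IsSolvable.commutator_lt_top_of_nontrivial R
    rw [comm_top_of_perfect hRp] at h1
    exact lt_irrefl _ h1

end norm

section omega

variable {ι : Type} [Fintype ι] [DecidableEq ι] {F : Type u} [Field F]

/-- scalars among the isometries -/
theorem scalar_iso {Q : (ι → F) → F} (hQ : IsNondegenerateQuadraticForm Q) [Nonempty ι] {z : GL ι F}
    (hz : z ∈ scalars ι F) (hi : z ∈ isometryGroup F Q) : (z : Matrix ι ι F) = 1 ∨ (z : Matrix ι ι F) = -1 := by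
  obtain ⟨c, hc⟩ := (mem_scalars_iff _).1 hz
  obtain ⟨i⟩ := ‹Nonempty ι›
  have hex : ∃ v, Q v ≠ 0 := by
    by_contra hcon
    push Not at hcon
    obtain ⟨-, y, hy⟩ := hQ.nondegenerate (Pi.single i 1) (fun h => by
      have := congrFun h i
      rw [Pi.single_eq_same] at this
      exact one_ne_zero this)
    apply hy
    rw [QuadraticMap.polar, hcon, hcon, hcon]
    ring
  obtain ⟨v, hv⟩ := hex
  have h1 := H925.mem_iso_iff.1 hi v
  rw [hc, Matrix.smul_mulVec, Matrix.one_mulVec, hQ.smul] at h1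
  have h2 : ((c : F) ^ 2 - 1) * Q v = 0 := by rw [sub_mul, h1]; ring
  have h3 : (c : F) ^ 2 = 1 := sub_eq_zero.1 ((mul_eq_zero.1 h2).resolve_right hv)
  rcases mul_self_eq_one_iff.1 ((pow_two (c : F)).symm.trans h3) with h | h
  · left; rw [hc, h, one_smul]
  · right; rw [hc, h, neg_smul, one_smul]

/-- normal subgroups of `Ω` -/
theorem qs_omega [Finite F] {Q : (ι → F) → F} (hQ : IsNondegenerateQuadraticForm Q) (hn : 5 ≤ Fintype.card ι) :
    ∀ N ≤ omegaGL Q, (∀ g ∈ omegaGL Q, ∀ x ∈ N, g * x * g⁻¹ ∈ N) → N ≤ scalars ι F ∨ N = omegaGL Q := by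
  intro N hN hnorm
  have hE := H925.map_omegaGL_eq hQ hn
  rcases Cfsg.Agent.LieClassical.OrthSimple.good_normal_dichotomy (H925.good_qf hQ hn)
    (N := N.map (Cfsg.Agent.LieClassical.OrthFinite.glEquiv ι F).toMonoidHom) (by
      rw [← hE]
      exact Subgroup.map_mono hN) (by
      rintro g hg _ ⟨x, hx, rfl⟩
      rw [← hE] at hg
      obtain ⟨g', hg', rfl⟩ := hg
      exact ⟨g' * x * g'⁻¹, hnorm g' hg' x hx, by rw [map_mul, map_mul, map_inv]⟩) with h | h
  · left
    intro x hx
    obtain ⟨c, hc⟩ := h _ ⟨x, hx, rfl⟩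
    rw [mem_scalars_iff]
    have hcv : ∀ v : ι → F, (x : Matrix ι ι F) *ᵥ v = c • v := hc
    have hxc : (x : Matrix ι ι F) = c • (1 : Matrix ι ι F) := by
      apply Matrix.toLin'.injective
      ext1 i
      ext1
      simp only [LinearMap.comp_apply, Matrix.toLin'_apply]
      rw [hcv, Matrix.smul_mulVec, Matrix.one_mulVec]
    have hc0 : c ≠ 0 := by
      rintro rfl
      rw [zero_smul] at hxc
      have h3 : ((x * x⁻¹ : GL ι F) : Matrix ι ι F) = 0 := by rw [Units.val_mul, hxc, Matrix.zero_mul]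
      rw [mul_inv_cancel, Units.val_one] at h3
      have hne : Nonempty ι := Fintype.card_pos_iff.1 (by omega)
      obtain ⟨i⟩ := hne
      have h4 := congrFun (congrFun h3 i) i
      rw [Matrix.one_apply_eq] at h4
      exact one_ne_zero h4
    exact ⟨Units.mk0 c hc0, hxc⟩
  · right
    rw [← hE] at h
    exact Subgroup.map_injective (Cfsg.Agent.LieClassical.OrthFinite.glEquiv ι F).injective h

/-- perfect groups of isometries -/
theorem le_omega {Q : (ι → F) → F} {A : Subgroup (GL ι F)} (hA : ⁅A, A⁆ = A) (h3 : A ≤ isometryGroup F Q) :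
    A ≤ omegaGL Q := by
  rw [← hA, Subgroup.commutator_le]
  intro a ha b hb
  exact H925.commutator_mem_omegaGL (h3 ha) (h3 hb)

theorem omega_le_iso (Q : (ι → F) → F) : omegaGL Q ≤ isometryGroup F Q := H925.omegaGL_le_iso Q

/-- `Ω` modulo scalars is `PΩ` -/
theorem card_QY_omega [Finite F] {Q : (ι → F) → F} (hQ : IsNondegenerateQuadraticForm Q) (hn : 5 ≤ Fintype.card ι) :
    Nat.card (QY (omegaGL Q)) = Nat.card (POmega F Q) := by
  have hne : Nonempty ι := Fintype.card_pos_iff.1 (by omega)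
  have hG := H925.good_qf hQ hn
  have hnd : (QuadraticMap.polarBilin (H925.qf hQ)).Nondegenerate := by
    exact ⟨fun x hx => hG.nondeg x hx, fun x hx => hG.nondeg x fun y => by
      rw [QuadraticMap.polar_comm]
      exact hx y⟩
  have hcen : ∀ z : Omega F Q, z ∈ Subgroup.center (Omega F Q) ↔
      (((z : isometryGroup F Q) : GL ι F) : Matrix ι ι F) = 1 ∨ (((z : isometryGroup F Q) : GL ι F) : Matrix ι ι F) = -1 :=
    fun z => Cfsg.Agent.LieClassical.OrthCenter.mem_center_omega_iff (Q := H925.qf hQ) hnd (by omega) hG.sing z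
  let e : Omega F Q ≃* omegaGL Q :=
    Subgroup.equivMapOfInjective (Omega F Q) (isometryGroup F Q).subtype (Subgroup.subtype_injective _)
  have he : ∀ z : Omega F Q, ((e z : omegaGL Q) : GL ι F) = ((z : isometryGroup F Q) : GL ι F) := fun z => rfl
  have hmap : (Subgroup.center (Omega F Q)).map e.toMonoidHom = (scalars ι F).subgroupOf (omegaGL Q) := by
    ext x
    constructor
    · rintro ⟨z, hz, rfl⟩
      rw [Subgroup.mem_subgroupOf, mem_scalars_iff]
      rcases (hcen z).1 hz with h | h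
      · exact ⟨1, by rw [Units.val_one, one_smul]; exact h⟩
      · exact ⟨-1, by rw [Units.val_neg, Units.val_one, neg_smul, one_smul]; exact h⟩
    · intro hx
      refine ⟨e.symm x, ?_, e.apply_symm_apply x⟩
      rw [SetLike.mem_coe, hcen]
      have h1 : (((e.symm x : Omega F Q) : isometryGroup F Q) : GL ι F) = (x : GL ι F) := by
        rw [← he, e.apply_symm_apply]
      rw [h1]
      exact scalar_iso hQ (Subgroup.mem_subgroupOf.1 hx) (omega_le_iso Q x.2)
  exact (Nat.card_congr (QuotientGroup.congr _ _ e hmap).toEquiv).symm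

open Cfsg.Agent.LieClassical.QuadForms in
/-- forms of plus type are standard -/
theorem exists_plus_equiv [Finite F] {n m : ℕ} (hm : 1 ≤ m) (hn : n = 2 * m) {Q : (Fin n → F) → F}
    (hQ : IsNondegenerateQuadraticForm Q) (hplus : IsPlusTypeOn Q ⊤) :
    ∃ e : (Fin m ⊕ Fin m → F) ≃ₗ[F] (Fin n → F), ∀ u, Q (e u) = quadFormPlus m F u := by
  have hrank : Module.finrank F (Fin n → F) = 2 * m := by
    rw [Module.finrank_fintype_fun_eq_card, Fintype.card_fin, hn]
  rcases Cfsg.Agent.H377.classify_all hm hrank (H925.qf hQ) (H925.nondeg_qf hQ) with h | ⟨ζ, hζ, e, he⟩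
  · exact h
  · exfalso
    obtain ⟨U, -, hU, hd⟩ := hplus
    rw [finrank_top, hrank] at hd
    have hW : ∀ w ∈ U.comap (e : (((Fin (m - 1) ⊕ Fin (m - 1)) ⊕ Fin 2 → F) →ₗ[F] (Fin n → F))),
        minusForm (m - 1) F 1 ζ w = 0 := by
      intro w hw
      rw [coe_minusForm, ← he w]
      exact hU _ hw
    have h1 := Cfsg.Agent.AutOrth.Main.finrank_le_of_TS_minus (m - 1) 1 ζ hζ hW
    have h2 : Module.finrank F (U.comap (e : (((Fin (m - 1) ⊕ Fin (m - 1)) ⊕ Fin 2 → F) →ₗ[F] (Fin n → F)))) =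
        Module.finrank F U := by
      have h3 := LinearEquiv.finrank_eq (e.symm.submoduleMap U)
      rw [h3]
      suffices h4 : U.comap (e : (((Fin (m - 1) ⊕ Fin (m - 1)) ⊕ Fin 2 → F) →ₗ[F] (Fin n → F))) =
          U.map (e.symm : (Fin n → F) →ₗ[F] ((Fin (m - 1) ⊕ Fin (m - 1)) ⊕ Fin 2 → F)) by rw [h4]
      ext x
      rw [Submodule.mem_comap, Submodule.mem_map]
      constructor
      · intro hx
        exact ⟨e x, hx, e.symm_apply_apply x⟩
      · rintro ⟨y, hy, rfl⟩
        change e (e.symm y) ∈ U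
        rw [e.apply_symm_apply]; exact hy
    omega

/-- the order of `PΩ⁺` -/
theorem card_pomega_plus [Finite F] {n m : ℕ} (hm : 1 ≤ m) (hn : n = 2 * m) {Q : (Fin n → F) → F}
    (hQ : IsNondegenerateQuadraticForm Q) (hplus : IsPlusTypeOn Q ⊤) :
    Nat.card (POmega F Q) = Nat.card (POmega F (quadFormPlus m F)) := by
  obtain ⟨e, he⟩ := exists_plus_equiv hm hn hQ hplus
  obtain ⟨e1⟩ := Cfsg.Agent.LieClassical.OrthFourCommon.exists_isometryGroup_equiv e (quadFormPlus m F) Q he
  obtain ⟨e2⟩ := Cfsg.Agent.LieClassical.OrthFourCommon.exists_isometryGroup_equiv (LinearEquiv.refl F (Fin n → F)) Q Q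
    (fun _ => rfl)
  obtain ⟨e3⟩ := Cfsg.Agent.ClassicalGeometry.OddInvolutions.commutator_quot_center_congr (e2.trans e1.symm)
  exact Nat.card_congr e3.toEquiv

end omega

end Cfsg.Agent.H888.C6
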