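import Cfsg.Agent.H62.PPIdx
import Cfsg.Agent.H684.FiltExc
import Cfsg.Agent.H258.Comm
import Cfsg.Agent.PLocal.OffenderStep

/-!
# Self-centralizing irreducible 2-subgroups of groups with a root group datum (helper888)

`no_F4` : a group with a filtered root group datum of type `F₄` in characteristic 2 has no self-centralizing subgroup of
order at most `2 ^ 10` on which its normalizer acts irreducibly.
-/

set_option autoImplicit false
set_option linter.unusedSectionVars false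

namespace Cfsg.Agent.H888.C6.BT

open CoxeterSystem Cfsg.Agent.ChevalleyStructure.CoxeterGeom Cfsg.Agent.Tits.Roots Cfsg.Agent.Tits.Core
  Cfsg.Agent.Nodes.Reps Cfsg.Agent.Nodes.BNOf Cfsg.Agent.Nodes.Bruhat Cfsg.Agent.Nodes.LeviDec
  Cfsg.Agent.Nodes.StabComb Cfsg.Agent.Nodes.Unique Cfsg.Agent.Nodes.CardSup Cfsg.Agent.H62.PPIdx

section Grp

variable {G : Type*} [Group G] [Finite G] {p : ℕ} [Fact p.Prime]

/-- `K = V` if `V ≥ K` is a `p`-group normalized by the irreducible group `N`. -/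
theorem eq_of_self {K V N : Subgroup G} (hV : IsPGroup p V) (hKV : K ≤ V) (hK1 : K ≠ ⊥)
    (hself : Subgroup.centralizer (K : Set G) ≤ K) (hN : N ≤ Subgroup.normalizer (K : Set G))
    (hNV : N ≤ Subgroup.normalizer (V : Set G))
    (hirr : ∀ B ≤ K, (∀ y ∈ N, ∀ b ∈ B, y * b * y⁻¹ ∈ B) → B = ⊥ ∨ B = K) : K = V := by
  by_contra hne
  have hlt : K < V := lt_of_le_of_ne hKV hne
  have h1 := Cfsg.Agent.H258.Comm.lt_inf_normalizer hV hlt
  set D : Subgroup G := V ⊓ Subgroup.normalizer (K : Set G) with hD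
  have hDp : IsPGroup p D := hV.to_le inf_le_left
  have hKp : IsPGroup p K := hV.to_le hKV
  have h3 := Cfsg.Agent.PLocal.OffenderStep.inf_centralizer_ne_bot K D hKp hDp inf_le_right hK1
  have hDinv : ∀ y ∈ N, ∀ d, d ∈ D ↔ y * d * y⁻¹ ∈ D := by
    intro y hy d
    rw [hD, Subgroup.mem_inf, Subgroup.mem_inf, ← (Subgroup.mem_normalizer_iff.1 (hNV hy) d)]
    refine and_congr Iff.rfl ?_
    constructor
    · intro hd
      exact mul_mem (mul_mem (hN hy) hd) (inv_mem (hN hy))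
    · intro hd
      have := mul_mem (mul_mem (inv_mem (hN hy)) hd) (hN hy)
      have e : y⁻¹ * (y * d * y⁻¹) * y = d := by group
      rwa [e] at this
  rcases hirr (K ⊓ Subgroup.centralizer (D : Set G)) inf_le_left (by
    rintro y hy b ⟨hb1, hb2⟩
    refine ⟨(Subgroup.mem_normalizer_iff.1 (hN hy) b).1 hb1, ?_⟩
    have hb2' := Subgroup.mem_centralizer_iff.1 hb2
    refine Subgroup.mem_centralizer_iff.2 fun d hd => ?_
    have hd' : y⁻¹ * d * y ∈ D := by
      rw [hDinv y hy]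
      have e : y * (y⁻¹ * d * y) * y⁻¹ = d := by group
      rw [e]; exact hd
    have h4 := hb2' _ hd'
    calc d * (y * b * y⁻¹) = y * ((y⁻¹ * d * y) * b) * y⁻¹ := by group
      _ = y * (b * (y⁻¹ * d * y)) * y⁻¹ := by rw [h4]
      _ = y * b * y⁻¹ * d := by group) with h | h
  · exact h3 h
  · have h5 : D ≤ K := by
      refine le_trans ?_ hself
      intro d hd
      refine Subgroup.mem_centralizer_iff.2 fun k hk => ?_
      have hk' : k ∈ K ⊓ Subgroup.centralizer (D : Set G) := by rw [h]; exact hk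
      exact (Subgroup.mem_centralizer_iff.1 hk'.2 d hd).symm
    exact absurd h1 (not_lt_of_ge h5)

end Grp

section

variable {I W Y : Type*} [Fintype I] [DecidableEq I] [Group W] [Group Y] {M : CoxeterMatrix I}
  {cs : CoxeterSystem M W} {A : I → I → ℤ} {h : IsCartan M A} {p : ℕ} {T : Subgroup Y} {n : I → Y}
  {X : (I → ℤ) → Subgroup Y} (R : RGD cs h p T n X)

include R

/-- the order of the unipotent radical is at least `p` to the number of its roots -/
theorem pow_le_card_VJ [Finite W] [Finite Y] [Fact p.Prime] (J : Set I) (S : Finset (I → ℤ))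
    (hS : ∀ x ∈ S, x ∈ NotJ cs h J) : p ^ S.card ≤ Nat.card (VJ cs h X J) := by
  classical
  have hfin : (NotJ cs h J).Finite := (RGD.finite_roots (cs := cs) (h := h)).subset fun _ hx => hx.1
  set s : Finset (I → ℤ) := hfin.toFinset with hs
  have hsc : (s : Set (I → ℤ)) = NotJ cs h J := hfin.coe_toFinset
  have h3 : Nat.card (VJ cs h X J) = ∏ x ∈ s, Nat.card (X x) := by
    have := card_sup R (s := s) (by rw [hsc]; exact fun x hx => ⟨hx.1, hx.2.1⟩) (by rw [hsc]; exact closed_NotJ J)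
    rw [← this, hsc]
    rfl
  have hpX : ∀ x ∈ s, p ≤ Nat.card (X x) := by
    intro x hx
    have hx' : x ∈ NotJ cs h J := by rw [← hsc]; exact hx
    have h1 : IsPGroup p (X x) := R.isPGroup_Upos.to_le (RGD.le_Sup ⟨hx'.1, hx'.2.1⟩)
    have h4 : X x ≠ ⊥ := X_ne_bot R hx'.1
    obtain ⟨m, hm⟩ := (IsPGroup.iff_card (p := p)).1 h1
    have hm0 : m ≠ 0 := by
      rintro rfl
      rw [pow_zero] at hm
      exact h4 (Subgroup.card_eq_one.1 hm)
    rw [hm]
    calc p = p ^ 1 := (pow_one p).symm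
      _ ≤ p ^ m := Nat.pow_le_pow_right (Fact.out : p.Prime).pos (by omega)
  have hSs : S ⊆ s := by
    intro x hx
    have : x ∈ (s : Set (I → ℤ)) := by rw [hsc]; exact hS x hx
    exact this
  rw [h3]
  calc p ^ S.card ≤ p ^ s.card := Nat.pow_le_pow_right (Fact.out : p.Prime).pos (Finset.card_le_card hSs)
    _ = ∏ x ∈ s, p := by rw [Finset.prod_const]
    _ ≤ ∏ x ∈ s, Nat.card (X x) := Finset.prod_le_prod' fun x hx => hpX x hx

end

/-! ### `F₄` -/

/-- Cartan matrix of type `F₄` -/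
def A1 : Fin 4 → Fin 4 → ℤ := ![![2, -1, 0, 0], ![-1, 2, -1, 0], ![0, -2, 2, -1], ![0, 0, -1, 2]]

/-- the dual Cartan matrix -/
def A2 : Fin 4 → Fin 4 → ℤ := ![![2, -1, 0, 0], ![-1, 2, -2, 0], ![0, -1, 2, -1], ![0, 0, -1, 2]]

theorem cartan_cases {A : Fin 4 → Fin 4 → ℤ} (h : IsCartan CoxeterMatrix.F₄ A) : A = A1 ∨ A = A2 := by
  have e01 : CoxeterMatrix.F₄ 0 1 = 3 := by decide
  have e02 : CoxeterMatrix.F₄ 0 2 = 2 := by decide
  have e03 : CoxeterMatrix.F₄ 0 3 = 2 := by decide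
  have e12 : CoxeterMatrix.F₄ 1 2 = 4 := by decide
  have e13 : CoxeterMatrix.F₄ 1 3 = 2 := by decide
  have e23 : CoxeterMatrix.F₄ 2 3 = 3 := by decide
  have h01 := h.rel 0 1 (by decide)
  have h02 := h.rel 0 2 (by decide)
  have h03 := h.rel 0 3 (by decide)
  have h12 := h.rel 1 2 (by decide)
  have h13 := h.rel 1 3 (by decide)
  have h23 := h.rel 2 3 (by decide)
  rw [e01] at h01
  rw [e02] at h02
  rw [e03] at h03
  rw [e12] at h12
  rw [e13] at h13
  rw [e23] at h23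
  have d0 := h.diag 0
  have d1 := h.diag 1
  have d2 := h.diag 2
  have d3 := h.diag 3
  have c01 : A 0 1 = -1 ∧ A 1 0 = -1 := by omega
  have c02 : A 0 2 = 0 ∧ A 2 0 = 0 := by omega
  have c03 : A 0 3 = 0 ∧ A 3 0 = 0 := by omega
  have c13 : A 1 3 = 0 ∧ A 3 1 = 0 := by omega
  have c23 : A 2 3 = -1 ∧ A 3 2 = -1 := by omega
  have c12 : (A 1 2 = -1 ∧ A 2 1 = -2) ∨ (A 1 2 = -2 ∧ A 2 1 = -1) := by omega
  rcases c12 with c12 | c12
  · left
    funext i j
    fin_cases i <;> fin_cases j <;> simp [A1, d0, d1, d2, d3, c01, c02, c03, c12, c13, c23]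
  · right
    funext i j
    fin_cases i <;> fin_cases j <;> simp [A2, d0, d1, d2, d3, c01, c02, c03, c12, c13, c23]

/-- simple reflection -/
def rf (A : Fin 4 → Fin 4 → ℤ) (i : Fin 4) (x : Fin 4 → ℤ) : Fin 4 → ℤ :=
  fun k => if k = i then x i - (A i 0 * x 0 + A i 1 * x 1 + A i 2 * x 2 + A i 3 * x 3) else x k

/-- the root with a given word -/
def vec (A : Fin 4 → Fin 4 → ℤ) (w : List (Fin 4) × Fin 4) : Fin 4 → ℤ := w.1.foldr (rf A) (sr w.2)

/-- the words of the roots of full support -/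
def wl : List (List (Fin 4) × Fin 4) :=
  [([3, 2, 1], 0), ([3, 0, 1], 2), ([3, 1, 2, 1], 0), ([2, 3, 0, 1], 2), ([2, 3, 1, 2, 1], 0),
    ([1, 2, 3, 0, 1], 2), ([1, 2, 3, 1, 2, 1], 0), ([2, 1, 2, 3, 0, 1], 2), ([0, 1, 2, 3, 1, 2, 1], 0),
    ([3, 2, 1, 2, 3, 0, 1], 2)]

theorem chk1 : (∀ w ∈ wl, ∀ k, 0 < vec A1 w k) ∧ (wl.map (vec A1)).Nodup := by decide +kernel

theorem chk2 : (∀ w ∈ wl, ∀ k, 0 < vec A2 w k) ∧ (wl.map (vec A2)).Nodup := by decide +kernel

theorem chk {A : Fin 4 → Fin 4 → ℤ} (h : IsCartan CoxeterMatrix.F₄ A) :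
    (∀ w ∈ wl, ∀ k, 0 < vec A w k) ∧ (wl.map (vec A)).Nodup := by
  rcases cartan_cases h with rfl | rfl
  · exact chk1
  · exact chk2

theorem isRoot_vec {W : Type*} [Group W] (cs : CoxeterSystem CoxeterMatrix.F₄ W) {A : Fin 4 → Fin 4 → ℤ}
    (h : IsCartan CoxeterMatrix.F₄ A) (w : List (Fin 4) × Fin 4) : IsRoot cs h (vec A w) := by
  obtain ⟨l, i⟩ := w
  unfold vec
  induction l with
  | nil => exact isRoot_sr cs h i
  | cons j l ih =>
    have h1 := ih.act (cs.simple j)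
    have h2 : rep cs h (cs.simple j) (l.foldr (rf A) (sr i)) = rf A j (l.foldr (rf A) (sr i)) := by
      funext k
      unfold rf
      by_cases hk : k = j
      · subst hk
        rw [rep_simple_apply_self, if_pos rfl]
        unfold pairing
        rw [Fin.sum_univ_four]
      · rw [rep_simple_apply _ _ _ _ _ hk, if_neg hk]
    rw [h2] at h1
    exact h1

theorem eleven {W : Type*} [Group W] (cs : CoxeterSystem CoxeterMatrix.F₄ W) {A : Fin 4 → Fin 4 → ℤ}
    (h : IsCartan CoxeterMatrix.F₄ A) {J : Set (Fin 4)} (hJ : J ≠ Set.univ) :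
    ∃ S : Finset (Fin 4 → ℤ), S.card = 11 ∧ ∀ x ∈ S, x ∈ NotJ cs h J := by
  classical
  obtain ⟨i, hi⟩ := (Set.ne_univ_iff_exists_notMem J).1 hJ
  obtain ⟨h1, h2⟩ := chk h
  refine ⟨insert (sr i) (wl.map (vec A)).toFinset, ?_, ?_⟩
  · rw [Finset.card_insert_of_notMem, List.toFinset_card_of_nodup h2, List.length_map]
    · rfl
    · intro hm
      rw [List.mem_toFinset, List.mem_map] at hm
      obtain ⟨w, hw, hw'⟩ := hm
      obtain ⟨j, hj⟩ : ∃ j : Fin 4, j ≠ i := exists_ne i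
      have h3 := h1 w hw j
      rw [hw', sr_ne hj] at h3
      exact absurd h3 (lt_irrefl _)
  · intro x hx
    rw [Finset.mem_insert, List.mem_toFinset, List.mem_map] at hx
    rcases hx with rfl | ⟨w, hw, rfl⟩
    · exact ⟨isRoot_sr cs h i, sr_nonneg i, i, hi, by rw [sr_self]; exact one_pos⟩
    · exact ⟨isRoot_vec cs h w, fun k => (h1 w hw k).le, i, hi, h1 w hw i⟩

/-- **Groups of type `F₄` in characteristic 2 have no self-centralizing irreducible subgroup of order at most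
`2 ^ 10`.** -/
theorem no_F4 {G : Type*} [Group G] [Finite G] (hG : Cfsg.Agent.H684.FiltClass.FiltD 2 CoxeterMatrix.F₄ G)
    {K N : Subgroup G} (hK : IsPGroup 2 K) (hK1 : K ≠ ⊥) (hself : Subgroup.centralizer (K : Set G) ≤ K)
    (hN : N ≤ Subgroup.normalizer (K : Set G))
    (hirr : ∀ B ≤ K, (∀ y ∈ N, ∀ b ∈ B, y * b * y⁻¹ ∈ B) → B = ⊥ ∨ B = K) : 2 ^ 11 ≤ Nat.card K := by
  have : Fact (Nat.Prime 2) := ⟨Nat.prime_two⟩
  obtain ⟨A, h, T, n, X, R, F, hW, hX, hF⟩ := hG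
  obtain ⟨g, J, hJ, h1, h2⟩ := Cfsg.Agent.KFacts.RgdFilt.borel_tits_of_filt hF hX hK hK1
  have hV : IsPGroup 2 (cj g (VJ CoxeterMatrix.F₄.toCoxeterSystem h X J)) :=
    (R.isPGroup_Upos.to_le (VJ_le_U J)).map _
  have hNV : N ≤ Subgroup.normalizer (cj g (VJ CoxeterMatrix.F₄.toCoxeterSystem h X J) : Set G) := by
    refine (hN.trans h2).trans ?_
    intro x hx
    rw [mem_cj] at hx
    have h3 := Cfsg.Agent.Nodes.LeviDec.PJ_le_normalizer_VJ R J hx
    rw [Subgroup.mem_normalizer_iff] at h3 ⊢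
    intro y
    change y ∈ cj g _ ↔ x * y * x⁻¹ ∈ cj g _
    rw [mem_cj, mem_cj, h3]
    have e : g⁻¹ * x * g * (g⁻¹ * y * g) * (g⁻¹ * x * g)⁻¹ = g⁻¹ * (x * y * x⁻¹) * g := by group
    rw [e]
  have h3 := eq_of_self hV h1 hK1 hself hN hNV hirr
  obtain ⟨S, hS, hS'⟩ := eleven CoxeterMatrix.F₄.toCoxeterSystem h hJ
  rw [h3, card_cj, ← hS]
  exact pow_le_card_VJ R J S hS'

end Cfsg.Agent.H888.C6.BT
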