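import Cfsg.Agent.H912.Bd4
import Cfsg.Prelude.Def_GeometricClasses

/-!
# Projective representations of the core and the linear representation on matrices (helper888)

* `PR.of_end` : a faithful linear representation gives `PR`;
* `pr_matrix` : `P ⧸ scalars` acts faithfully on `n × n` matrices;
* `pr_core` : the projective representation in dimension `n`, for primes `r` not dividing the order of the scalars.
-/

set_option autoImplicit false

namespace Cfsg.Agent.H888.C6

open Cfsg Cfsg.Geo Cfsg.Agent.H912.Bd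

universe u v

theorem PR.of_end {F : Type u} [Field F] {V : Type*} [AddCommGroup V] [Module F V] [FiniteDimensional F V]
    {T : Type u} [Group T] (r : ℕ) (ρ : T →* Module.End F V) (hρ : Function.Injective ρ) :
    PR F (Module.finrank F V) r T := by
  classical
  let b := Module.finBasis F V
  let f : Module.End F V ≃ₐ[F] Matrix (Fin (Module.finrank F V)) (Fin (Module.finrank F V)) F :=
    LinearMap.toMatrixAlgEquiv b
  let ρ' : T →* Matrix.GeneralLinearGroup (Fin (Module.finrank F V)) F :=
    MonoidHom.toHomUnits ((f : Module.End F V →* Matrix (Fin (Module.finrank F V)) (Fin (Module.finrank F V)) F).comp ρ)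
  refine ⟨T, inferInstance, MonoidHom.id T, ρ', fun x => ⟨x, rfl⟩, ?_, ?_, ?_⟩
  · intro x hx y
    have : x = 1 := hx
    rw [this, one_mul, mul_one]
  · have h1 : (MonoidHom.id T).ker = ⊥ := by
      rw [eq_bot_iff]
      intro x hx
      exact hx
    rw [h1, Subgroup.card_bot]
    exact Nat.coprime_one_left r
  · intro x hx
    have h1 : ρ' x = 1 := hx
    have h2 : f (ρ x) = 1 := congrArg Units.val h1
    have h3 : ρ x = 1 := f.injective (by rw [h2, map_one])
    change x = 1
    exact hρ (h3.trans (map_one ρ).symm)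

variable {ι : Type} [Fintype ι] [DecidableEq ι] {F : Type u} [Field F]

/-- conjugation of matrices -/
def cjE : Matrix.GeneralLinearGroup ι F →* Module.End F (Matrix ι ι F) where
  toFun g :=
    { toFun := fun X => (g : Matrix ι ι F) * X * ((g⁻¹ : Matrix.GeneralLinearGroup ι F) : Matrix ι ι F)
      map_add' := fun X Y => by rw [Matrix.mul_add, Matrix.add_mul]
      map_smul' := fun c X => by rw [Matrix.mul_smul, Matrix.smul_mul, RingHom.id_apply] }
  map_one' := by
    ext X
    simp
  map_mul' g h := by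
    refine LinearMap.ext fun X => ?_
    change ((g * h : Matrix.GeneralLinearGroup ι F) : Matrix ι ι F) * X *
      (((g * h)⁻¹ : Matrix.GeneralLinearGroup ι F) : Matrix ι ι F) =
      (g : Matrix ι ι F) * ((h : Matrix ι ι F) * X * ((h⁻¹ : Matrix.GeneralLinearGroup ι F) : Matrix ι ι F)) *
        ((g⁻¹ : Matrix.GeneralLinearGroup ι F) : Matrix ι ι F)
    rw [mul_inv_rev, Units.val_mul, Units.val_mul]
    simp only [Matrix.mul_assoc]

theorem cjE_apply (g : Matrix.GeneralLinearGroup ι F) (X : Matrix ι ι F) :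
    cjE g X = (g : Matrix ι ι F) * X * ((g⁻¹ : Matrix.GeneralLinearGroup ι F) : Matrix ι ι F) := rfl

theorem cjE_eq_one [Nonempty ι] (g : Matrix.GeneralLinearGroup ι F) : cjE g = 1 ↔ g ∈ scalars ι F := by
  constructor
  · intro h
    have h1 : ∀ X : Matrix ι ι F, (g : Matrix ι ι F) * X = X * (g : Matrix ι ι F) := by
      intro X
      have h2 := congrArg (fun f : Module.End F (Matrix ι ι F) => f X) h
      change (g : Matrix ι ι F) * X * ((g⁻¹ : Matrix.GeneralLinearGroup ι F) : Matrix ι ι F) = X at h2
      calc (g : Matrix ι ι F) * X = (g : Matrix ι ι F) * X *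
            (((g⁻¹ : Matrix.GeneralLinearGroup ι F) : Matrix ι ι F) * (g : Matrix ι ι F)) := by
            rw [Units.inv_mul, Matrix.mul_one]
        _ = X * (g : Matrix ι ι F) := by rw [← Matrix.mul_assoc, h2]
    obtain ⟨c, hc⟩ := Matrix.mem_range_scalar_of_commute_single (M := (g : Matrix ι ι F)) fun i j _ => by
      exact (h1 (Matrix.single i j 1)).symm
    rw [mem_scalars_iff]
    have hc' : (g : Matrix ι ι F) = c • (1 : Matrix ι ι F) := by
      rw [← hc]
      simp [Matrix.smul_one_eq_diagonal]
    have hc0 : c ≠ 0 := by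
      rintro rfl
      rw [zero_smul] at hc'
      exact g.ne_zero hc'
    exact ⟨Units.mk0 c hc0, hc'⟩
  · intro h
    obtain ⟨c, hc⟩ := (mem_scalars_iff g).1 h
    refine LinearMap.ext fun X => ?_
    rw [cjE_apply, hc]
    have h2 : (g : Matrix ι ι F) * X = X * (g : Matrix ι ι F) := by
      rw [hc, Matrix.smul_mul, Matrix.one_mul, Matrix.mul_smul, Matrix.mul_one]
    rw [← hc, h2, Matrix.mul_assoc, Units.mul_inv, Matrix.mul_one]
    rfl

/-- **`P ⧸ scalars` acts faithfully on matrices.** -/
theorem pr_matrix [Nonempty ι] (P : Subgroup (Matrix.GeneralLinearGroup ι F)) (r : ℕ) :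
    PR F (Fintype.card ι ^ 2) r (P ⧸ (scalars ι F).subgroupOf P) := by
  let ρ : (P ⧸ (scalars ι F).subgroupOf P) →* Module.End F (Matrix ι ι F) :=
    QuotientGroup.lift _ (cjE.comp P.subtype) fun x hx => (cjE_eq_one _).2 (Subgroup.mem_subgroupOf.1 hx)
  have hρ : Function.Injective ρ := by
    rw [injective_iff_map_eq_one]
    intro x hx
    obtain ⟨x, rfl⟩ := QuotientGroup.mk_surjective x
    have h1 : cjE (x : Matrix.GeneralLinearGroup ι F) = 1 := hx
    exact (QuotientGroup.eq_one_iff x).2 (Subgroup.mem_subgroupOf.2 ((cjE_eq_one _).1 h1))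
  have h := PR.of_end r ρ hρ
  have h1 : Module.finrank F (Matrix ι ι F) = Fintype.card ι ^ 2 := by
    rw [Module.finrank_matrix, Module.finrank_self, mul_one, sq]
  rwa [h1] at h

/-- **The projective representation of degree `n`.** -/
theorem pr_core (P : Subgroup (Matrix.GeneralLinearGroup ι F)) {r : ℕ}
    (hr : (Nat.card ((scalars ι F).subgroupOf P)).Coprime r) :
    PR F (Fintype.card ι) r (P ⧸ (scalars ι F).subgroupOf P) := by
  classical
  let e : Matrix ι ι F ≃ₐ[F] Matrix (Fin (Fintype.card ι)) (Fin (Fintype.card ι)) F :=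
    Matrix.reindexAlgEquiv F F (Fintype.equivFin ι)
  let ρ : P →* Matrix.GeneralLinearGroup (Fin (Fintype.card ι)) F :=
    (Units.mapEquiv (e : Matrix ι ι F ≃* Matrix (Fin (Fintype.card ι)) (Fin (Fintype.card ι)) F)).toMonoidHom.comp
      P.subtype
  refine ⟨P, inferInstance, QuotientGroup.mk' _, ρ, QuotientGroup.mk'_surjective _, ?_, ?_, ?_⟩
  · intro x hx y
    have h1 := (QuotientGroup.eq_one_iff x).1 hx
    obtain ⟨c, hc⟩ := (mem_scalars_iff _).1 (Subgroup.mem_subgroupOf.1 h1)
    apply Subtype.ext
    apply Units.ext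
    change ((x : Matrix.GeneralLinearGroup ι F) : Matrix ι ι F) * ((y : Matrix.GeneralLinearGroup ι F) : Matrix ι ι F) =
      ((y : Matrix.GeneralLinearGroup ι F) : Matrix ι ι F) * ((x : Matrix.GeneralLinearGroup ι F) : Matrix ι ι F)
    rw [hc, Matrix.smul_mul, Matrix.one_mul, Matrix.mul_smul, Matrix.mul_one]
  · rw [QuotientGroup.ker_mk']
    exact hr
  · intro x hx
    have h1 : ρ x = 1 := hx
    have h2 : (x : Matrix.GeneralLinearGroup ι F) = 1 :=
      (Units.mapEquiv (e : Matrix ι ι F ≃* Matrix (Fin (Fintype.card ι)) (Fin (Fintype.card ι)) F)).injective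
        (by rw [map_one]; exact h1)
    have h3 : x = 1 := Subtype.ext h2
    rw [h3]
    exact Subgroup.one_mem _

end Cfsg.Agent.H888.C6
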