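import Cfsg.Agent.H888.C6.Over
import Cfsg.Agent.H878.PStep

/-!
# Maximality from the analysis of the quasisimple overgroups (helper888)
-/

set_option autoImplicit false

namespace Cfsg.Agent.H888.C6

open Cfsg Cfsg.Geo Matrix Cfsg.Agent.ClassicalGeometry.SympBasic Cfsg.Agent.H920 Cfsg.Agent.H919

universe u

variable {ι : Type} [Fintype ι] [DecidableEq ι] {F : Type u} [Field F] {R : Subgroup (GL ι F)} {k : ℕ}
variable {C : Coord R 2 k} {q : V2 k → ZMod 2} {Y : Subgroup (GL ι F)}

/-- **Maximality.** -/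
theorem max_of [Finite F] [Nonempty ι] (T : TC C q) (hk : 4 ≤ k) (habs : ActsAbsolutelyIrreducibly (matrixSet R))
    (hR2 : IsPGroup 2 R) (hdim : Fintype.card ι = 2 ^ k) (hY : YCore C q Y) {X : Subgroup (GL ι F)} (hYX : Y ≤ X)
    (hsc : ∀ z ∈ scalars ι F, z ∈ X → (z : Matrix ι ι F) = 1 ∨ (z : Matrix ι ι F) = -1)
    (hsch : ∀ P : Subgroup (GL ι F), IsSimpleGroup (QY P) → ¬ IsMulCommutative (QY P) → Schreier.Basic.Sch (QY P))
    (hfin : ∀ P : Subgroup (GL ι F), P ≤ X → Over C q Y P → X ≤ P) (hprop : ¬ X ≤ subgroupNormalizer R) :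
    IsMaximalIn X (subgroupNormalizer R ⊓ X) := by
  have hYN : Y ≤ subgroupNormalizer R ⊓ X := le_inf hY.norm hYX
  refine ⟨lt_of_le_of_ne inf_le_right fun h => hprop (by rw [← h]; exact inf_le_left), ?_⟩
  intro H hMH hHX
  by_cases hH : H ≤ subgroupNormalizer R
  · exact Or.inl (le_antisymm (le_inf hH hHX) hMH)
  right
  obtain ⟨z, hz⟩ : ∃ z : R, ((z : GL ι F) : Matrix ι ι F) = -1 := by
    obtain ⟨z, hz⟩ := C.exists_scalar (show 1 ≤ k by omega) 1
    rw [chi_eq, sF_one, neg_smul, one_smul] at hz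
    exact ⟨z, hz⟩
  obtain ⟨P, hP⟩ := hY.exists_coreNS T hk habs hR2 hdim (hYN.trans hMH) (by
    intro z' hz' hz'H
    rcases hsc z' hz' (hHX hz'H) with h | h
    · have : z' = 1 := Units.ext h
      rw [this]; exact R.one_mem
    · have : z' = z := Units.ext (h.trans hz.symm)
      rw [this]; exact z.2) hH
  have hYP : Y ≤ P := H878.perfect_le_core hP (hYN.trans hMH) hY.perfect (hsch P hP.simple hP.nonabelian)
  have O : Over C q Y P := ⟨T, hY, hk, habs, hdim, hYP, hP.perfect, hP.simple, hP.nonabelian,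
    fun z hz hzP => hsc z hz (hHX (hP.le hzP))⟩
  exact le_antisymm hHX ((hfin P (hP.le.trans hHX) O).trans hP.le)

/-- the order of the quotient by scalars determines the group -/
theorem eq_of_card_quot [Finite F] {P X : Subgroup (GL ι F)} (hPX : P ≤ X)
    (hsc : ∀ z ∈ scalars ι F, z ∈ X → z ∈ P) (h : Nat.card (QY X) ≤ Nat.card (QY P)) : X ≤ P := by
  have hfin : Finite (GL ι F) := inferInstance
  have h1 : Nat.card P = Nat.card ((scalars ι F).subgroupOf P) * Nat.card (QY P) := by
    rw [mul_comm]; exact Subgroup.card_eq_card_quotient_mul_card_subgroup _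
  have h2 : Nat.card X = Nat.card ((scalars ι F).subgroupOf X) * Nat.card (QY X) := by
    rw [mul_comm]; exact Subgroup.card_eq_card_quotient_mul_card_subgroup _
  have h3 : Nat.card ((scalars ι F).subgroupOf X) ≤ Nat.card ((scalars ι F).subgroupOf P) := by
    apply Nat.card_le_card_of_injective
      (fun x : (scalars ι F).subgroupOf X => (⟨⟨(x : X), hsc _ (Subgroup.mem_subgroupOf.1 x.2) (x : X).2⟩,
        Subgroup.mem_subgroupOf.2 (Subgroup.mem_subgroupOf.1 x.2)⟩ : (scalars ι F).subgroupOf P))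
    intro x y hxy
    apply Subtype.ext
    apply Subtype.ext
    exact congrArg (fun z : (scalars ι F).subgroupOf P => ((z : P) : GL ι F)) hxy
  have h4 : Nat.card X ≤ Nat.card P := by
    rw [h1, h2]
    exact Nat.mul_le_mul h3 h
  exact (Subgroup.eq_of_le_of_card_ge hPX h4).ge

/-- quotients of subgroups by scalars -/
theorem card_quot_dvd {P X : Subgroup (GL ι F)} (hPX : P ≤ X) : Nat.card (QY P) ∣ Nat.card (QY X) := by
  have hle : (scalars ι F).subgroupOf P ≤ ((scalars ι F).subgroupOf X).comap (Subgroup.inclusion hPX) := by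
    intro y hy
    rw [Subgroup.mem_comap, Subgroup.mem_subgroupOf]
    exact Subgroup.mem_subgroupOf.1 hy
  have hinj : Function.Injective (QuotientGroup.map _ _ (Subgroup.inclusion hPX) hle) := by
    rw [injective_iff_map_eq_one]
    intro x hx
    obtain ⟨y, rfl⟩ := QuotientGroup.mk_surjective x
    rw [QuotientGroup.map_mk, QuotientGroup.eq_one_iff, Subgroup.mem_subgroupOf] at hx
    rw [QuotientGroup.eq_one_iff, Subgroup.mem_subgroupOf]
    exact hx
  rw [Nat.card_congr (MonoidHom.ofInjective hinj).toEquiv]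
  exact Subgroup.card_subgroup_dvd_card _

end Cfsg.Agent.H888.C6
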