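import Cfsg.Agent.H888.C6.YCard
import Cfsg.Agent.H888.C6.FTHom
import Cfsg.Agent.H888.C6.MatRep
import Cfsg.Agent.H888.C6.BT
import Cfsg.Agent.H888.C6.Red4
import Cfsg.Agent.H878.KerBase
import Cfsg.Agent.H917.NatRep

/-!
# The quasisimple overgroups of `Y` (helper888)

`Over C q Y P` : `P` is a perfect group with scalars `±1`, simple modulo scalars, containing `Y`.
Consequences for representations of `P / scalars`.
-/

set_option autoImplicit false

namespace Cfsg.Agent.H888.C6

open Cfsg Cfsg.Geo Matrix Cfsg.Agent.ClassicalGeometry.SympBasic Cfsg.Agent.H920 Cfsg.Agent.H919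

universe u

variable {ι : Type} [Fintype ι] [DecidableEq ι] {F : Type u} [Field F] {R : Subgroup (GL ι F)} {k : ℕ}
variable {C : Coord R 2 k} {q : V2 k → ZMod 2} {Y P : Subgroup (GL ι F)}

/-- the quasisimple overgroups of `Y` -/
structure Over (C : Coord R 2 k) (q : V2 k → ZMod 2) (Y P : Subgroup (GL ι F)) : Prop where
  tc : TC C q
  yc : YCore C q Y
  four : 4 ≤ k
  abs : ActsAbsolutelyIrreducibly (matrixSet R)
  card : Fintype.card ι = 2 ^ k
  le : Y ≤ P
  perfect : ⁅P, P⁆ = P
  simple : IsSimpleGroup (QY P)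
  nonabelian : ¬ IsMulCommutative (QY P)
  ker : ∀ z ∈ scalars ι F, z ∈ P → (z : Matrix ι ι F) = 1 ∨ (z : Matrix ι ι F) = -1

namespace Over

variable (O : Over C q Y P)

include O

theorem nonempty : Nonempty ι := by
  apply Fintype.card_pos_iff.1
  rw [O.card]
  exact Nat.two_pow_pos k

/-- `-1 ∈ R` -/
theorem exists_neg : ∃ z : R, ((z : GL ι F) : Matrix ι ι F) = -1 := by
  have hk1 : 1 ≤ k := by have := O.four; omega
  obtain ⟨z, hz⟩ := C.exists_scalar hk1 1
  rw [chi_eq, sF_one, neg_smul, one_smul] at hz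
  exact ⟨z, hz⟩

/-- the embedding -/
theorem exists_j : ∃ j : QY Y →* QY P, Function.Injective j ∧
    ∀ y : Y, j (mkY Y y) = mkY P ⟨y, O.le y.2⟩ := by
  refine ⟨QuotientGroup.map _ _ (Subgroup.inclusion O.le) ?_, ?_, fun y => rfl⟩
  · intro y hy
    rw [Subgroup.mem_comap, Subgroup.mem_subgroupOf]
    exact Subgroup.mem_subgroupOf.1 hy
  · rw [injective_iff_map_eq_one]
    intro x hx
    obtain ⟨y, rfl⟩ := QuotientGroup.mk_surjective x
    rw [QuotientGroup.map_mk, QuotientGroup.eq_one_iff, Subgroup.mem_subgroupOf] at hx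
    rw [QuotientGroup.eq_one_iff, Subgroup.mem_subgroupOf]
    exact hx

theorem pow_dvd [Finite F] : 2 ^ (k * (k + 1)) ∣ Nat.card (QY P) := by
  have := O.nonempty
  have h4 := O.four
  obtain ⟨j, hj, -⟩ := O.exists_j
  refine (O.yc.pow_dvd_card O.tc (by omega)).trans ?_
  rw [Nat.card_congr (MonoidHom.ofInjective hj).toEquiv]
  exact Subgroup.card_subgroup_dvd_card _

/-- a nontrivial element -/
theorem exists_a : ∃ a : AY R Y, a ≠ 1 := by
  have h1 := card_AY C O.yc.le
  have h2 : 1 < Nat.card (AY R Y) := by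
    rw [h1]
    exact Nat.one_lt_two_pow (by have := O.four; omega)
  have : Nontrivial (AY R Y) := by
    by_contra hcon
    rw [not_nontrivial_iff_subsingleton] at hcon
    have h3 : Finite (AY R Y) := Nat.finite_of_card_ne_zero (by omega)
    have h4 : Nat.card (AY R Y) = 1 := Nat.card_eq_one_iff_unique.2 ⟨hcon, ⟨1⟩⟩
    omega
  exact exists_ne 1

theorem commP : commutator P = ⊤ := by
  rw [eq_top_iff]
  have h1 : (commutator P).map P.subtype = P := by
    rw [commutator_def, Subgroup.map_commutator, ← MonoidHom.range_eq_map, Subgroup.range_subtype, O.perfect]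
  intro y _
  have h2 : (y : GL ι F) ∈ (commutator P).map P.subtype := by rw [h1]; exact y.2
  obtain ⟨z, hz, hzy⟩ := h2
  have : z = y := Subtype.ext hzy
  rw [← this]; exact hz

theorem not_away [Finite F] : ¬ H878.Away.{u} 2 (QY P) := by
  rintro ⟨m, hm, hrm⟩
  obtain ⟨z, hz⟩ := O.exists_neg
  have hzP : (z : GL ι F) ∈ P := O.le (O.yc.le z.2)
  have hz1 : (⟨(z : GL ι F), hzP⟩ : P) ∈ (scalars ι F).subgroupOf P := by
    rw [Subgroup.mem_subgroupOf, mem_scalars_iff]
    exact ⟨-1, by rw [Units.val_neg, Units.val_one, neg_smul, one_smul]; exact hz⟩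
  have h1 : (⟨(z : GL ι F), hzP⟩ : P) ^ m = 1 := by
    refine hm P (QuotientGroup.mk' _) (QuotientGroup.mk'_surjective _) ?_ O.commP _ ?_
    · rw [QuotientGroup.ker_mk']
      intro y hy
      rw [Subgroup.mem_center_iff]
      intro g
      rw [Subgroup.mem_subgroupOf] at hy
      exact (Subtype.ext (H920.scalars_comm hy g)).symm
    · rw [QuotientGroup.ker_mk']; exact hz1
  rw [← even_iff_two_dvd, Nat.not_even_iff_odd] at hrm
  obtain ⟨j, rfl⟩ := hrm
  have h2 : ((z : GL ι F) : Matrix ι ι F) ^ (2 * j + 1) = 1 := by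
    have := congrArg (fun x : P => ((x : GL ι F) : Matrix ι ι F)) h1
    exact this
  rw [hz, pow_succ, pow_mul, neg_one_sq, one_pow, one_mul] at h2
  have := O.nonempty
  obtain ⟨i⟩ := this
  have h3 := congrFun (congrFun h2 i) i
  rw [Matrix.neg_apply, Matrix.one_apply_eq] at h3
  exact neg_one_ne O.tc.two h3

/-- representations of `P / scalars` in dimension `2 ^ k` -/
theorem pr [Finite F] {r : ℕ} (hr : r.Prime) (hr2 : r ≠ 2) : H912.Bd.PR F (2 ^ k) r (QY P) := by
  rw [← O.card]
  apply H888.C6.pr_core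
  have h2 : IsPGroup 2 ((scalars ι F).subgroupOf P) := by
    intro x
    refine ⟨1, ?_⟩
    rw [pow_one]
    apply Subtype.ext
    apply Subtype.ext
    apply Units.ext
    have hx := Subgroup.mem_subgroupOf.1 x.2
    have h3 : (((x : P) : GL ι F) : Matrix ι ι F) ^ 2 = 1 := by
      rcases O.ker _ hx (x : P).2 with h | h
      · rw [h, one_pow]
      · rw [h, neg_one_sq]
    exact h3
  have : Fact (Nat.Prime 2) := ⟨Nat.prime_two⟩
  obtain ⟨n, hn⟩ := IsPGroup.iff_card.1 h2
  rw [hn]
  exact Nat.Coprime.pow_left _ ((Nat.coprime_primes Nat.prime_two hr).2 (Ne.symm hr2))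

/-- linear representations of `P / scalars` -/
theorem linear_deg [Finite F] {K : Type*} [Field K] (h2 : (2 : K) ≠ 0) {κ : Type*} [Fintype κ] [DecidableEq κ]
    (ρ : QY P →* GL κ K) (hρ : Function.Injective ρ) : N0 k ≤ Fintype.card κ := by
  have := O.nonempty
  have h4 := O.four
  have := O.yc.fact
  obtain ⟨j, hj, -⟩ := O.exists_j
  refine (O.yc.big O.tc (by omega)).matrix_linear h2 (ρ.comp j) ?_
  obtain ⟨a, ha⟩ := O.exists_a
  exact ⟨a, a.2, fun h => ha (Subtype.ext (hj (hρ (by rw [Subgroup.coe_one, map_one, map_one]; exact h))))⟩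

/-- permutation representations of `P / scalars` -/
theorem perm_deg [Finite F] {Ω : Type*} [Fintype Ω] [DecidableEq Ω]
    (ρ : QY P →* Equiv.Perm Ω) (hρ : Function.Injective ρ) : N0 k ≤ Fintype.card Ω := by
  have := O.nonempty
  have h4 := O.four
  have := O.yc.fact
  obtain ⟨j, hj, -⟩ := O.exists_j
  refine (O.yc.big O.tc (by omega)).perm (ρ.comp j) ?_
  obtain ⟨a, ha⟩ := O.exists_a
  exact ⟨a, a.2, fun h => ha (Subtype.ext (hj (hρ (by rw [Subgroup.coe_one, map_one, map_one]; exact h))))⟩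

/-- natural degree -/
theorem nat_deg [Finite F] {K : Type*} [Field K] (h2 : (2 : K) ≠ 0) {κ : Type} [Fintype κ] [DecidableEq κ]
    [Nonempty κ] (h : H917.NatRep K κ (QY P)) : 2 ^ k ≤ Fintype.card κ := by
  have := O.nonempty
  have h4 := O.four
  have := O.yc.fact
  obtain ⟨θ, hθ⟩ := h
  obtain ⟨j, hj, -⟩ := O.exists_j
  have h1 := (O.yc.big O.tc (by omega)).matrix h2 (θ.comp j) (by
    obtain ⟨a, ha⟩ := O.exists_a
    exact ⟨a, a.2, fun h => ha (Subtype.ext (hj (hθ (by rw [Subgroup.coe_one, map_one, map_one]; exact h))))⟩)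
    (QuotientGroup.mk' (Subgroup.center (GL κ K))) (fun y => QuotientGroup.mk'_surjective _ _) (MonoidHom.id _) (by
      intro g hg
      rw [QuotientGroup.mk'_apply, QuotientGroup.eq_one_iff, Matrix.GeneralLinearGroup.center_eq_range_scalar] at hg
      obtain ⟨c, rfl⟩ := hg
      refine ⟨c, ?_⟩
      change Matrix.scalar κ (c : K) = _
      rw [Matrix.scalar_apply, Matrix.smul_one_eq_diagonal]) (by
      rintro g ⟨c, hc⟩
      rw [QuotientGroup.mk'_apply, QuotientGroup.eq_one_iff]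
      exact H917.mem_center_GL_of_smul hc)
  rw [card_AY C O.yc.le, two_N0 (by omega)] at h1
  by_contra hlt
  push Not at hlt
  rcases h1 with h1 | h1
  · have h3 : Fintype.card κ ^ 2 < (2 ^ k) ^ 2 := Nat.pow_lt_pow_left hlt (by norm_num)
    rw [← pow_mul, mul_comm k 2] at h3
    omega
  · have h16 : 16 ≤ 2 ^ k := by
      calc 16 = 2 ^ 4 := by norm_num
        _ ≤ 2 ^ k := Nat.pow_le_pow_right (by norm_num) h4
    obtain ⟨n, hn⟩ : ∃ n, 2 ^ k = n + 2 := ⟨2 ^ k - 2, by omega⟩
    rw [hn] at h1 hlt h16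
    rw [Nat.add_sub_cancel] at h1
    have h3 : Fintype.card κ * (Fintype.card κ - 1) ≤ (n + 1) * n := Nat.mul_le_mul (by omega) (by omega)
    nlinarith

end Over

end Cfsg.Agent.H888.C6
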