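import Cfsg.Agent.H888.C6.PStr

/-!
# The perfect part of the normaliser, centre of order 2 (helper888)

`YCore C q Y` : `Y` is perfect, normalises `R`, contains `R` and induces `Wq q`.
* `TC.exists_Y` : existence inside a group `X` containing `R` and the pairs.
* `YCore.le_of_normalised` : consequences (transitivity, irreducibility).
-/

set_option autoImplicit false

namespace Cfsg.Agent.H888.C6

open Cfsg Cfsg.Geo Matrix Cfsg.Agent.ClassicalGeometry.SympBasic Cfsg.Agent.H920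
open scoped commutatorElement

variable {ι : Type} [Fintype ι] [DecidableEq ι] {F : Type*} [Field F] {R : Subgroup (GL ι F)} {k : ℕ}

/-- matrices of elements of the symplectic group -/
abbrev sm (A : Sp2 k) : Matrix (Fin k ⊕ Fin k) (Fin k ⊕ Fin k) (ZMod 2) := (A : Matrix _ _ _)

/-- perfect, normalising `R`, inducing `Wq q` and containing `R`. -/
structure YCore (C : Coord R 2 k) (q : V2 k → ZMod 2) (Y : Subgroup (GL ι F)) : Prop where
  norm : Y ≤ subgroupNormalizer R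
  perfect : ⁅Y, Y⁆ = Y
  ind : ∀ A ∈ Wq q, ∃ g ∈ Y, C.Ind g (sm A)
  le : R ≤ Y

/-- The pairs. -/
def PairsIn (C : Coord R 2 k) (q : V2 k → ZMod 2) (X : Subgroup (GL ι F)) : Prop :=
  ∀ a b : R, q (C.φ a) = 1 → q (C.φ b) = 1 → ∀ g : GL ι F,
    (g : Matrix ι ι F) = (2 : F)⁻¹ • ((1 + ((a : GL ι F) : Matrix ι ι F)) * (1 + ((b : GL ι F) : Matrix ι ι F))) → g ∈ X

section

variable {C : Coord R 2 k} {q : V2 k → ZMod 2}

theorem TC.ind_all [Finite R] [Nonempty ι] (T : TC C q) {X : Subgroup (GL ι F)}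
    (hX : PairsIn C q X) (A : Sp2 k) (hA : A ∈ Wq q) : ∃ g ∈ subgroupNormalizer R ⊓ X, C.Ind g (sm A) := by
  induction hA using Subgroup.closure_induction with
  | mem A hA =>
    obtain ⟨v, w, hv, hw, rfl⟩ := hA
    obtain ⟨a, rfl⟩ := C.surj v
    obtain ⟨b, rfl⟩ := C.surj w
    obtain ⟨g, hg, hi⟩ := T.exists_pair hv hw
    exact ⟨g, ⟨hi.mem_normalizer, hX a b hv hw g hg⟩, hi⟩
  | one => exact ⟨1, Subgroup.one_mem _, Coord.Ind.one C⟩
  | mul A B _ _ hA hB =>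
    obtain ⟨g₁, h₁, h₁'⟩ := hA
    obtain ⟨g₂, h₂, h₂'⟩ := hB
    exact ⟨g₁ * g₂, Subgroup.mul_mem _ h₁ h₂, h₁'.mul h₂'⟩
  | inv A _ hA =>
    obtain ⟨g₁, h₁, h₁'⟩ := hA
    exact ⟨g₁⁻¹, Subgroup.inv_mem _ h₁, h₁'.invS⟩

theorem TC.ind_series [Finite R] [Nonempty ι] (T : TC C q) (hk : 3 ≤ k) {X : Subgroup (GL ι F)}
    (hX : PairsIn C q X) (n : ℕ) (A : Sp2 k) (hA : A ∈ Wq q) :
    ∃ g ∈ derivedSeries (subgroupNormalizer R ⊓ X : Subgroup (GL ι F)) n, C.Ind (g : GL ι F) (sm A) := by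
  induction n generalizing A with
  | zero =>
    obtain ⟨g, hg, h⟩ := T.ind_all hX A hA
    exact ⟨⟨g, hg⟩, Subgroup.mem_top _, h⟩
  | succ n ih =>
    rw [← T.isQ.Wq_perfect hk, Subgroup.commutator_def] at hA
    induction hA using Subgroup.closure_induction with
    | mem A hA =>
      obtain ⟨B₁, hB₁, B₂, hB₂, rfl⟩ := hA
      obtain ⟨g₁, h₁, h₁'⟩ := ih B₁ hB₁
      obtain ⟨g₂, h₂, h₂'⟩ := ih B₂ hB₂
      refine ⟨⁅g₁, g₂⁆, Subgroup.commutator_mem_commutator h₁ h₂, ?_⟩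
      rw [commutatorElement_def, commutatorElement_def]
      exact ((h₁'.mul h₂').mul h₁'.invS).mul h₂'.invS
    | one => exact ⟨1, Subgroup.one_mem _, Coord.Ind.one C⟩
    | mul A B _ _ hA hB =>
      obtain ⟨g₁, h₁, h₁'⟩ := hA
      obtain ⟨g₂, h₂, h₂'⟩ := hB
      exact ⟨g₁ * g₂, Subgroup.mul_mem _ h₁ h₂, h₁'.mul h₂'⟩
    | inv A _ hA =>
      obtain ⟨g₁, h₁, h₁'⟩ := hA
      exact ⟨g₁⁻¹, Subgroup.inv_mem _ h₁, h₁'.invS⟩

theorem φ_neg_eq (C : Coord R 2 k) (x : R) : C.φ x⁻¹ = C.φ x := by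
  rw [C.φ_inv]
  exact neg_eq_of_add_eq_zero_left (v2_two _)

/-- **Existence of `Y`.** -/
theorem TC.exists_Y [Finite F] [Nonempty ι] (T : TC C q) (hk : 3 ≤ k) {X : Subgroup (GL ι F)} (hRX : R ≤ X)
    (hX : PairsIn C q X) : ∃ Y : Subgroup (GL ι F), YCore C q Y ∧ Y ≤ X ∧
      ∀ g ∈ subgroupNormalizer R ⊓ X, ∀ y ∈ Y, g * y * g⁻¹ ∈ Y := by
  have hfin : Finite (GL ι F) := inferInstance
  have hq := T.isQ
  obtain ⟨N, hN, hperf', n, hn⟩ := exists_perfect_residual (subgroupNormalizer R ⊓ X : Subgroup (GL ι F))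
  have hnorm : ∀ g ∈ subgroupNormalizer R ⊓ X, ∀ y ∈ N.map (subgroupNormalizer R ⊓ X).subtype,
      g * y * g⁻¹ ∈ N.map (subgroupNormalizer R ⊓ X).subtype := conj_mem_map inferInstance
  have hind : ∀ A ∈ Wq q, ∃ g ∈ N.map (subgroupNormalizer R ⊓ X).subtype, C.Ind g (sm A) := by
    intro A hA
    obtain ⟨g, hg, hg'⟩ := T.ind_series hk hX n A hA
    rw [hn] at hg
    exact ⟨g, ⟨g, hg, rfl⟩, hg'⟩
  set Y := N.map (subgroupNormalizer R ⊓ X).subtype with hY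
  have hYle : Y ≤ subgroupNormalizer R ⊓ X := by
    rintro _ ⟨x, -, rfl⟩; exact x.2
  have hRN : R ≤ subgroupNormalizer R ⊓ X := le_inf Subgroup.le_normalizer hRX
  -- commutators with elements of `R`
  have hcom : ∀ A ∈ Wq q, ∀ x : R, ∃ z : R, (z : GL ι F) ∈ Y ∧ C.φ z = ac A (C.φ x) + C.φ x := by
    intro A hA x
    obtain ⟨g, hg, hi⟩ := hind A hA
    obtain ⟨x', h1, h3⟩ := hi x
    refine ⟨x' * x⁻¹, ?_, ?_⟩
    · rw [Subgroup.coe_mul, ← h1, Subgroup.coe_inv]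
      have h4 := hnorm x (hRN x.2) _ (Subgroup.inv_mem _ hg)
      have h5 := Subgroup.mul_mem _ hg h4
      have h6 : g * ((x : GL ι F) * g⁻¹ * (x : GL ι F)⁻¹) = g * x * g⁻¹ * (x : GL ι F)⁻¹ := by group
      rwa [h6] at h5
    · rw [C.map_mul, φ_neg_eq, h3]; rfl
  -- all vectors occur
  let S : Set (V2 k) := {v | ∃ z : R, (z : GL ι F) ∈ Y ∧ C.φ z = v}
  have hSadd : ∀ v ∈ S, ∀ w ∈ S, v + w ∈ S := by
    rintro v ⟨z, hz, rfl⟩ w ⟨z', hz', rfl⟩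
    exact ⟨z * z', Subgroup.mul_mem _ hz hz', C.map_mul _ _⟩
  have hS1 : ∀ a, q a = 1 → a ∈ S := by
    intro a ha
    obtain ⟨b, hb1, hb2⟩ := hq.exQ1 hk (hq.ne_zero ha) 1 1
    have hab : a ≠ b := by rintro rfl; rw [bf_self] at hb1; exact z2_ne hb1.symm
    obtain ⟨v, hv1, hv2, -⟩ := hq.exQ2 hk (hq.ne_zero ha) (hq.ne_zero hb2) hab 1 0 0
    obtain ⟨x, rfl⟩ := C.surj v
    obtain ⟨z, hz, hz'⟩ := hcom (tv a * tv b) (mem_Wq ha hb2) x
    refine ⟨z, hz, ?_⟩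
    rw [hz', ac_mul, ac_tv_zero hv2, ac_tv_one hv1, add_comm (C.φ x) a, add_assoc, v2_two, add_zero]
  have hSall : ∀ v, v ∈ S := by
    intro v
    by_cases hv : v = 0
    · rw [hv]; exact ⟨1, Subgroup.one_mem _, C.φ_one⟩
    rcases z2 (q v) with h | h
    · obtain ⟨a, ha1, ha2⟩ := hq.exQ1 hk hv 0 1
      have h1 : q (v + a) = 1 := by rw [hq.add, h, ha2, bf_comm, ha1, zero_add, add_zero]
      have := hSadd _ (hS1 _ h1) _ (hS1 a ha2)
      rwa [add_assoc, v2_two, add_zero] at this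
    · exact hS1 v h
  have hk1 : 1 ≤ k := by omega
  -- `-1`
  have hneg : ∃ z : R, (z : GL ι F) ∈ Y ∧ ((z : GL ι F) : Matrix ι ι F) = -1 := by
    obtain ⟨z, hz⟩ := C.exists_scalar hk1 1
    rw [chi_eq, sF_one, neg_smul, one_smul] at hz
    obtain ⟨w, hw⟩ : ∃ v w : V2 k, bf v w = 1 := by
      obtain ⟨v, hv⟩ : ∃ v : V2 k, v ≠ 0 :=
        ⟨Pi.single (Sum.inl ⟨0, hk1⟩) 1, by
          intro h; have := congrFun h (Sum.inl ⟨0, hk1⟩); rw [Pi.single_eq_same] at this; exact z2_ne this⟩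
      obtain ⟨w, hw⟩ := exists_bf_one hv
      exact ⟨w, v, hw⟩
    obtain ⟨v, hv⟩ := hw
    obtain ⟨x, hx, hx'⟩ := hSall w
    obtain ⟨y, hy, hy'⟩ := hSall v
    refine ⟨z, ?_, hz⟩
    have h1 := comm_sF C x y
    rw [hx', hy', hv, sF_one] at h1
    have h3 : (z : GL ι F) = x * y * (x : GL ι F)⁻¹ * (y : GL ι F)⁻¹ := by
      rw [eq_mul_inv_iff_mul_eq, eq_mul_inv_iff_mul_eq]
      apply Units.ext
      rw [Units.val_mul, Units.val_mul, Units.val_mul, hz, h1, Matrix.neg_mul, Matrix.one_mul, neg_smul, one_smul,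
        Matrix.neg_mul]
    rw [h3]
    exact Subgroup.mul_mem _ (Subgroup.mul_mem _ (Subgroup.mul_mem _ hx hy) (Subgroup.inv_mem _ hx)) (Subgroup.inv_mem _ hy)
  have hRY : R ≤ Y := by
    intro x hx
    obtain ⟨z, hz, hz'⟩ := hSall (C.φ ⟨x, hx⟩)
    have h1 : C.φ (⟨x, hx⟩ * z⁻¹) = 0 := by rw [C.map_mul, φ_neg_eq, hz', v2_two]
    obtain ⟨w, hw, hw'⟩ := hneg
    rcases T.ker _ h1 with h | h
    · have h3 : x = z := by
        have h4 : ((⟨x, hx⟩ * z⁻¹ : R) : GL ι F) = 1 := Units.ext h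
        rw [Subgroup.coe_mul, Subgroup.coe_inv, mul_inv_eq_one] at h4
        exact h4
      rw [h3]; exact hz
    · have h3 : x = w * z := by
        have h4 : ((⟨x, hx⟩ * z⁻¹ : R) : GL ι F) = w := Units.ext (by rw [h, hw'])
        rw [Subgroup.coe_mul, Subgroup.coe_inv, mul_inv_eq_iff_eq_mul] at h4
        exact h4
      rw [h3]; exact Subgroup.mul_mem _ hw hz
  refine ⟨Y, ⟨fun y hy => (hYle hy).1, ?_, hind, hRY⟩, fun y hy => (hYle hy).2, hnorm⟩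
  rw [hY, ← Subgroup.map_commutator, hperf']

end

namespace YCore

variable {C : Coord R 2 k} {q : V2 k → ZMod 2} {Y : Subgroup (GL ι F)} (hY : YCore C q Y)

include hY

/-- Transitivity on vectors with the same value. -/
theorem trans (hq : IsQ q) (hk : 3 ≤ k) {x x' : R} (hx : C.φ x ≠ 0) (hx' : C.φ x' ≠ 0)
    (h : q (C.φ x) = q (C.φ x')) : ∃ g ∈ Y, ∃ y : R, g * x * g⁻¹ = y ∧ C.φ y = C.φ x' := by
  obtain ⟨A, hA, hA'⟩ := hq.Wq_trans hk hx hx' h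
  obtain ⟨g, hg, hi⟩ := hY.ind A hA
  obtain ⟨y, h1, h3⟩ := hi x
  exact ⟨g, hg, y, h1, by rw [h3]; exact hA'⟩

/-- Invariant sets of vectors closed under addition. -/
theorem irr (hq : IsQ q) (hk : 3 ≤ k) (S : Set (V2 k)) (hadd : ∀ v ∈ S, ∀ w ∈ S, v + w ∈ S)
    (hinv : ∀ A ∈ Wq q, ∀ v ∈ S, ac A v ∈ S) (hne : ∃ v ∈ S, v ≠ 0) (v : V2 k) : v ∈ S := by
  obtain ⟨w, hw, hw0⟩ := hne
  have h0 : (0 : V2 k) ∈ S := by rw [← v2_two w]; exact hadd w hw w hw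
  by_cases hv : v = 0
  · rw [hv]; exact h0
  -- a vector with `q = 1` in `S`
  have h1 : ∃ a ∈ S, q a = 1 := by
    rcases z2 (q w) with h | h
    · -- w singular: choose singular u with bf u w = 1, then w + u has q = 1
      obtain ⟨u, hu1, hu2⟩ := hq.exQ1 hk hw0 1 0
      have hu0 : u ≠ 0 := by rintro rfl; rw [bf_zero_left] at hu1; exact z2_ne hu1.symm
      obtain ⟨A, hA, hA'⟩ := hq.Wq_trans hk hw0 hu0 (by rw [h, hu2])
      refine ⟨w + u, hadd _ hw _ (by rw [← hA']; exact hinv A hA w hw), ?_⟩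
      rw [hq.add, h, hu2, bf_comm, hu1, zero_add, zero_add]
    · exact ⟨w, hw, h⟩
  obtain ⟨a, ha, ha1⟩ := h1
  have hall : ∀ b, q b = 1 → b ∈ S := by
    intro b hb
    obtain ⟨A, hA, hA'⟩ := hq.Wq_trans hk (hq.ne_zero ha1) (hq.ne_zero hb) (by rw [ha1, hb])
    rw [← hA']; exact hinv A hA a ha
  rcases z2 (q v) with h | h
  · obtain ⟨a, ha1, ha2⟩ := hq.exQ1 hk hv 0 1
    have h1 : q (v + a) = 1 := by rw [hq.add, h, ha2, bf_comm, ha1, zero_add, add_zero]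
    have := hadd _ (hall _ h1) _ (hall a ha2)
    rwa [add_assoc, v2_two, add_zero] at this
  · exact hall v h

end YCore

end Cfsg.Agent.H888.C6
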