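import Cfsg.Agent.H888.C6.PBig
import Cfsg.Agent.H920.CsData

/-!
# Existence of the data for the groups of the statements (helper888)

`exists_TC` : symplectic type, centre of order 2, absolutely irreducible.
`pairsIn_isometry`, `pairsIn_form` : the pairs preserve the invariant quadratic (bilinear) forms.
-/

set_option autoImplicit false

namespace Cfsg.Agent.H888.C6

open Cfsg Cfsg.Geo Matrix Cfsg.Agent.ClassicalGeometry.SympBasic Cfsg.Agent.H920
open scoped commutatorElement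

variable {ι : Type} [Fintype ι] [DecidableEq ι] {F : Type*} [Field F] {R : Subgroup (GL ι F)} {k : ℕ}

theorem exists_TC [Finite F] [Nonempty ι] (h2 : (2 : F) ≠ 0) (hR : IsSymplecticTypeGroup 2 R)
    (habs : ActsAbsolutelyIrreducibly (matrixSet R)) (hcard : Nat.card R = 2 ^ (1 + 2 * k))
    (hZ : Nat.card (Subgroup.center R) = 2) (hk : 1 ≤ k) :
    Fintype.card ι = 2 ^ k ∧ ∃ (C : Coord R 2 k) (q : V2 k → ZMod 2), TC C q := by
  classical
  have hfin : Finite R := inferInstance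
  have hdim : Fintype.card ι = 2 ^ k := H921.card_eq_pow_of_center_prime hR habs hZ hcard
  have hcc : ∀ x y : R, x * y * x⁻¹ * y⁻¹ ∈ Subgroup.center R := fun x y =>
    H921.commutator_mem_center hR (fun h => absurd h (by decide)) x y
  have hsqZ : ∀ z ∈ Subgroup.center R, z * z = 1 := by
    intro z hz
    have h1 : (⟨z, hz⟩ : Subgroup.center R) ^ 2 = 1 := by rw [← hZ]; exact pow_card_eq_one'
    have := congrArg Subtype.val h1
    rw [pow_two] at this
    exact this
  have hcomm : ∀ x ∈ R, ∀ y ∈ R, x * y * x⁻¹ * y⁻¹ ∈ scalars ι F := fun x hx y hy =>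
    mem_scalars_of_mem_center habs (hcc ⟨x, hx⟩ ⟨y, hy⟩)
  have hsq : ∀ x : R, x ^ 2 ∈ Subgroup.center R := by
    intro x
    rw [Subgroup.mem_center_iff]
    intro y
    have h1 := hcc x y
    have h3 := hsqZ _ h1
    have h4 := Subgroup.mem_center_iff.1 h1
    -- x y = c y x
    set c := x * y * x⁻¹ * y⁻¹ with hc
    have h5 : x * y = c * y * x := by rw [hc]; group
    have h6 : x ^ 2 * y = y * x ^ 2 := by
      calc x ^ 2 * y = x * (x * y) := by rw [pow_two, mul_assoc]
        _ = x * (c * y * x) := by rw [h5]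
        _ = (x * c) * y * x := by group
        _ = (c * x) * y * x := by rw [h4 x]
        _ = c * (x * y) * x := by group
        _ = c * (c * y * x) * x := by rw [h5]
        _ = (c * c) * (y * (x * x)) := by group
        _ = y * x ^ 2 := by rw [h3, one_mul, pow_two]
    exact h6.symm
  have hpow : ∀ x ∈ R, x ^ 2 ∈ scalars ι F := fun x hx => mem_scalars_of_mem_center habs (hsq ⟨x, hx⟩)
  obtain ⟨C⟩ := exists_coord habs hcomm Nat.prime_two hk hpow hdim
  -- central elements are ±1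
  have hpm : ∀ x : R, x ∈ Subgroup.center R →
      ((x : GL ι F) : Matrix ι ι F) = 1 ∨ ((x : GL ι F) : Matrix ι ι F) = -1 := by
    intro x hx
    obtain ⟨c, hc⟩ := (mem_scalars_iff _).1 (mem_scalars_of_mem_center habs hx)
    have h1 := hsqZ x hx
    have h3 : ((c : F) * (c : F)) • (1 : Matrix ι ι F) = (1 : F) • 1 := by
      have h4 : (((x * x : R) : GL ι F) : Matrix ι ι F) = 1 := by rw [h1]; rfl
      rw [Subgroup.coe_mul, Units.val_mul, hc, Matrix.smul_mul, Matrix.mul_smul, Matrix.one_mul, smul_smul] at h4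
      rw [h4, one_smul]
    have h4 : ((c : F) * (c : F)) = 1 := by
      have h5 := sub_eq_zero.2 h3
      rw [← sub_smul] at h5
      exact sub_eq_zero.1 ((smul_eq_zero.1 h5).resolve_right one_ne_zero)
    rcases mul_self_eq_one_iff.1 h4 with h | h
    · left; rw [hc, h, one_smul]
    · right; rw [hc, h, neg_smul, one_smul]
  let f : V2 k → R := fun v => (C.surj v).choose
  have hf : ∀ v, C.φ (f v) = v := fun v => (C.surj v).choose_spec
  let q : V2 k → ZMod 2 := fun v => if (f v) ^ 2 = 1 then 0 else 1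
  have hker : ∀ x : R, C.φ x = 0 → ((x : GL ι F) : Matrix ι ι F) = 1 ∨ ((x : GL ι F) : Matrix ι ι F) = -1 :=
    fun x hx => hpm x (mem_center_of_mem_scalars habs ((C.ker_iff x).1 hx))
  refine ⟨hdim, C, q, ⟨h2, ?_, hker⟩⟩
  intro x
  have h1 : C.φ (x * (f (C.φ x))⁻¹) = 0 := by rw [C.map_mul, φ_neg_eq, hf, v2_two]
  have h3 : ((x : GL ι F) : Matrix ι ι F) * ((x : GL ι F) : Matrix ι ι F) =
      ((f (C.φ x) : GL ι F) : Matrix ι ι F) * ((f (C.φ x) : GL ι F) : Matrix ι ι F) := by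
    have h4 : (x : GL ι F) = ((x * (f (C.φ x))⁻¹ : R) : GL ι F) * (f (C.φ x) : GL ι F) := by
      rw [Subgroup.coe_mul, Subgroup.coe_inv, inv_mul_cancel_right]
    rw [h4, Units.val_mul]
    rcases hker _ h1 with h | h
    · rw [h, Matrix.one_mul]
    · rw [h, Matrix.neg_mul, Matrix.one_mul, Matrix.neg_mul, Matrix.mul_neg, neg_neg]
  rw [h3]
  have h5 := hpm _ (hsq (f (C.φ x)))
  have h6 : (((f (C.φ x)) ^ 2 : R) : GL ι F) = (f (C.φ x) : GL ι F) * (f (C.φ x) : GL ι F) := by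
    rw [pow_two, Subgroup.coe_mul]
  rw [h6, Units.val_mul] at h5
  by_cases h7 : (f (C.φ x)) ^ 2 = 1
  · have h8 : q (C.φ x) = 0 := if_pos h7
    rw [h8, sF_zero, one_smul, ← Units.val_mul, ← h6, h7]; rfl
  · have h8 : q (C.φ x) = 1 := if_neg h7
    rw [h8, sF_one, neg_smul, one_smul]
    rcases h5 with h | h
    · exfalso
      apply h7
      apply Subtype.ext
      apply Units.ext
      rw [h6, Units.val_mul, h]; rfl
    · exact h

section Forms

variable {C : Coord R 2 k} {q : V2 k → ZMod 2}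

/-- bilinear forms -/
theorem form_pair (T : TC C q) {B : (ι → F) → (ι → F) → F} (hB : IsBilinearForm B)
    (hR : ∀ x : R, ∀ v w, B (((x : GL ι F) : Matrix ι ι F) *ᵥ v) (((x : GL ι F) : Matrix ι ι F) *ᵥ w) = B v w)
    {a : R} (ha : q (C.φ a) = 1) (v w : ι → F) :
    B ((1 + ((a : GL ι F) : Matrix ι ι F)) *ᵥ v) ((1 + ((a : GL ι F) : Matrix ι ι F)) *ᵥ w) = 2 * B v w := by
  have hsq : ((a : GL ι F) : Matrix ι ι F) * ((a : GL ι F) : Matrix ι ι F) = -1 := by
    rw [T.sqs, ha, sF_one, neg_smul, one_smul]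
  set M := ((a : GL ι F) : Matrix ι ι F) with hM
  have h1 : B v (M *ᵥ w) = - B (M *ᵥ v) w := by
    rw [← hR a v (M *ᵥ w), ← hM, Matrix.mulVec_mulVec, hsq, Matrix.neg_mulVec, Matrix.one_mulVec,
      ← neg_one_smul F w, hB.smul_right, neg_one_mul]
  rw [Matrix.add_mulVec, Matrix.add_mulVec, Matrix.one_mulVec, Matrix.one_mulVec, hB.add_left, hB.add_right,
    hB.add_right, hR a v w, h1]
  ring

/-- quadratic forms -/
theorem quad_pair (T : TC C q) {Q : (ι → F) → F} (hQ : IsNondegenerateQuadraticForm Q)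
    (hR : R ≤ isometryGroup F Q) {a : R} (ha : q (C.φ a) = 1) (v : ι → F) :
    Q ((1 + ((a : GL ι F) : Matrix ι ι F)) *ᵥ v) = 2 * Q v := by
  have hRQ : ∀ x : R, ∀ v, Q (((x : GL ι F) : Matrix ι ι F) *ᵥ v) = Q v := fun x v => hR x.2 v 0
  have hRB : ∀ x : R, ∀ v w, QuadraticMap.polar Q (((x : GL ι F) : Matrix ι ι F) *ᵥ v)
      (((x : GL ι F) : Matrix ι ι F) *ᵥ w) = QuadraticMap.polar Q v w := by
    intro x v w
    unfold QuadraticMap.polar
    rw [← Matrix.mulVec_add, hRQ, hRQ, hRQ]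
  have h1 := form_pair T hQ.polar_bilinear hRB ha v v
  have h3 : ∀ u, QuadraticMap.polar Q u u = 2 * Q u := by
    intro u
    unfold QuadraticMap.polar
    rw [← two_smul F u, hQ.smul]; ring
  rw [h3, h3] at h1
  exact mul_left_cancel₀ T.two h1

theorem pairsIn_isometry (T : TC C q) {Q : (ι → F) → F} (hQ : IsNondegenerateQuadraticForm Q)
    (hR : R ≤ isometryGroup F Q) : PairsIn C q (isometryGroup F Q) := by
  intro a b ha hb g hg u v
  change Q ((g : Matrix ι ι F) *ᵥ u) = Q u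
  rw [hg, Matrix.smul_mulVec, ← Matrix.mulVec_mulVec, hQ.smul, quad_pair T hQ hR ha, quad_pair T hQ hR hb, ← mul_assoc,
    ← mul_assoc]
  have : (2 : F)⁻¹ ^ 2 * 2 * 2 = 1 := by
    have := T.two
    field_simp
  rw [this, one_mul]

theorem pairsIn_form (T : TC C q) {B : (ι → F) → (ι → F) → F} (hB : IsBilinearForm B)
    (hR : ∀ x : R, ∀ v w, B (((x : GL ι F) : Matrix ι ι F) *ᵥ v) (((x : GL ι F) : Matrix ι ι F) *ᵥ w) = B v w)
    {a b : R} (ha : q (C.φ a) = 1) (hb : q (C.φ b) = 1) {g : GL ι F}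
    (hg : (g : Matrix ι ι F) = (2 : F)⁻¹ • ((1 + ((a : GL ι F) : Matrix ι ι F)) * (1 + ((b : GL ι F) : Matrix ι ι F))))
    (v w : ι → F) : B ((g : Matrix ι ι F) *ᵥ v) ((g : Matrix ι ι F) *ᵥ w) = B v w := by
  rw [hg, Matrix.smul_mulVec, Matrix.smul_mulVec, ← Matrix.mulVec_mulVec, ← Matrix.mulVec_mulVec, hB.smul_left,
    hB.smul_right, form_pair T hB hR ha, form_pair T hB hR hb, ← mul_assoc, ← mul_assoc, ← mul_assoc]
  have : (2 : F)⁻¹ * (2 : F)⁻¹ * 2 * 2 = 1 := by
    have := T.two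
    field_simp
  rw [this, one_mul]

end Forms

end Cfsg.Agent.H888.C6
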