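import Cfsg.Agent.H888.C6.QFGen
import Cfsg.Agent.H920.CsPerf
import Cfsg.Agent.H921.SympDim

/-!
# The normaliser of an extraspecial 2-group, centre of order 2 (helper888)

`TC C q` : the squares of the elements of `R` are given by the quadratic form `q`.
* `exists_TC` : existence of coordinates and `q`;
* `TC.tau` : `1 + a`, `a ^ 2 = -1`, induces the transvection;
* `TC.exists_Y` : the perfect part of the normaliser of `R` in `X`.
-/

set_option autoImplicit false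

namespace Cfsg.Agent.H888.C6

open Cfsg Cfsg.Geo Matrix Cfsg.Agent.ClassicalGeometry.SympBasic Cfsg.Agent.H920
open scoped commutatorElement

variable {ι : Type} [Fintype ι] [DecidableEq ι] {F : Type*} [Field F] {R : Subgroup (GL ι F)} {k : ℕ}

/-- the sign in `F` -/
def sF (F : Type*) [Field F] (a : ZMod 2) : F := if a = 0 then 1 else -1

theorem sF_zero : sF F 0 = 1 := rfl
theorem sF_one : sF F 1 = -1 := rfl

theorem sF_mul (a b : ZMod 2) : sF F (a + b) = sF F a * sF F b := by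
  rcases z2 a with rfl | rfl <;> rcases z2 b with rfl | rfl
  · rw [add_zero, sF_zero, mul_one]
  · rw [zero_add, sF_zero, one_mul]
  · rw [add_zero, sF_zero, mul_one]
  · rw [z2_two, sF_zero, sF_one]; ring

theorem sF_sq (a : ZMod 2) : sF F a * sF F a = 1 := by rw [← sF_mul, z2_two, sF_zero]

theorem neg_one_ne (h2 : (2 : F) ≠ 0) : (-1 : F) ≠ 1 := by
  intro h
  apply h2
  calc (2 : F) = 1 + 1 := by norm_num
    _ = 1 + -1 := by rw [h]
    _ = 0 := by ring

theorem sF_inj (h2 : (2 : F) ≠ 0) {a b : ZMod 2} (h : sF F a = sF F b) : a = b := by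
  rcases z2 a with rfl | rfl <;> rcases z2 b with rfl | rfl
  · rfl
  · exact absurd h.symm (neg_one_ne h2)
  · exact absurd h (neg_one_ne h2)
  · rfl

theorem chi_eq (C : Coord R 2 k) (a : ZMod 2) : C.χ a = sF F a := by
  have h0 : C.χ 0 = 1 := AddChar.map_zero_eq_one _
  rcases z2 a with rfl | rfl
  · rw [h0, sF_zero]
  · have h1 : C.χ 1 * C.χ 1 = 1 := by
      rw [← AddChar.map_add_eq_mul, z2_two, h0]
    rcases mul_self_eq_one_iff.1 h1 with h | h
    · exact absurd (C.inj (h.trans h0.symm)) z2_ne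
    · rw [h, sF_one]

theorem comm_sF (C : Coord R 2 k) (x y : R) :
    ((x : GL ι F) : Matrix ι ι F) * ((y : GL ι F) : Matrix ι ι F) =
      sF F (bf (C.φ x) (C.φ y)) • (((y : GL ι F) : Matrix ι ι F) * ((x : GL ι F) : Matrix ι ι F)) := by
  rw [C.comm, chi_eq]

/-- Squares are given by `q`. -/
structure TC (C : Coord R 2 k) (q : V2 k → ZMod 2) : Prop where
  two : (2 : F) ≠ 0
  sqs : ∀ x : R, ((x : GL ι F) : Matrix ι ι F) * ((x : GL ι F) : Matrix ι ι F) = sF F (q (C.φ x)) • 1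
  ker : ∀ x : R, C.φ x = 0 → ((x : GL ι F) : Matrix ι ι F) = 1 ∨ ((x : GL ι F) : Matrix ι ι F) = -1

namespace TC

variable {C : Coord R 2 k} {q : V2 k → ZMod 2} (T : TC C q)

include T

theorem isQ [Nonempty ι] : IsQ q := by
  refine ⟨fun v w => ?_⟩
  obtain ⟨x, rfl⟩ := C.surj v
  obtain ⟨y, rfl⟩ := C.surj w
  have h1 := T.sqs (x * y)
  rw [C.map_mul] at h1
  have h3 : (((x * y : R) : GL ι F) : Matrix ι ι F) * (((x * y : R) : GL ι F) : Matrix ι ι F) =
      (sF F (q (C.φ x)) * sF F (q (C.φ y)) * sF F (bf (C.φ x) (C.φ y))) • (1 : Matrix ι ι F) := by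
    rw [Subgroup.coe_mul, Units.val_mul]
    calc ((x : GL ι F) : Matrix ι ι F) * ((y : GL ι F) : Matrix ι ι F) *
          (((x : GL ι F) : Matrix ι ι F) * ((y : GL ι F) : Matrix ι ι F))
        = ((x : GL ι F) : Matrix ι ι F) * (((y : GL ι F) : Matrix ι ι F) * ((x : GL ι F) : Matrix ι ι F)) *
          ((y : GL ι F) : Matrix ι ι F) := by simp only [Matrix.mul_assoc]
      _ = ((x : GL ι F) : Matrix ι ι F) * (sF F (bf (C.φ y) (C.φ x)) • (((x : GL ι F) : Matrix ι ι F) *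
            ((y : GL ι F) : Matrix ι ι F))) * ((y : GL ι F) : Matrix ι ι F) := by rw [comm_sF C y x]
      _ = sF F (bf (C.φ y) (C.φ x)) • ((((x : GL ι F) : Matrix ι ι F) * ((x : GL ι F) : Matrix ι ι F)) *
            (((y : GL ι F) : Matrix ι ι F) * ((y : GL ι F) : Matrix ι ι F))) := by
          rw [Matrix.mul_smul, Matrix.smul_mul]; simp only [Matrix.mul_assoc]
      _ = _ := by
          rw [T.sqs, T.sqs, Matrix.smul_mul, Matrix.mul_smul, Matrix.one_mul, smul_smul, smul_smul, bf_comm]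
          congr 1; ring
  rw [h3] at h1
  have h4 : (sF F (q (C.φ x)) * sF F (q (C.φ y)) * sF F (bf (C.φ x) (C.φ y)) - sF F (q (C.φ x + C.φ y))) •
      (1 : Matrix ι ι F) = 0 := by rw [sub_smul, h1, sub_self]
  have h5 := sub_eq_zero.1 ((smul_eq_zero.1 h4).resolve_right one_ne_zero)
  rw [← sF_mul, ← sF_mul] at h5
  exact (sF_inj T.two h5).symm

/-- the unit `1 + a` -/
theorem exists_tau {a : R} (ha : q (C.φ a) = 1) :
    ∃ g : GL ι F, (g : Matrix ι ι F) = 1 + ((a : GL ι F) : Matrix ι ι F) ∧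
      ((g⁻¹ : GL ι F) : Matrix ι ι F) = (2 : F)⁻¹ • (1 - ((a : GL ι F) : Matrix ι ι F)) := by
  have hsq : ((a : GL ι F) : Matrix ι ι F) * ((a : GL ι F) : Matrix ι ι F) = -1 := by
    rw [T.sqs, ha, sF_one, neg_smul, one_smul]
  have h1 : (1 + ((a : GL ι F) : Matrix ι ι F)) * ((2 : F)⁻¹ • (1 - ((a : GL ι F) : Matrix ι ι F))) = 1 := by
    rw [Matrix.mul_smul, Matrix.mul_sub, Matrix.mul_one, Matrix.add_mul, Matrix.one_mul, hsq]
    rw [show (1 : Matrix ι ι F) + ((a : GL ι F) : Matrix ι ι F) - (((a : GL ι F) : Matrix ι ι F) + -1) = (2 : F) • 1 by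
      rw [two_smul]; abel]
    rw [smul_smul, inv_mul_cancel₀ T.two, one_smul]
  have h3 : ((2 : F)⁻¹ • (1 - ((a : GL ι F) : Matrix ι ι F))) * (1 + ((a : GL ι F) : Matrix ι ι F)) = 1 :=
    mul_eq_one_comm.1 h1
  exact ⟨⟨_, _, h1, h3⟩, rfl, rfl⟩

/-- `1 + a` induces the transvection. -/
theorem ind_tau {a : R} (ha : q (C.φ a) = 1) {g : GL ι F}
    (hg : (g : Matrix ι ι F) = 1 + ((a : GL ι F) : Matrix ι ι F)) :
    C.Ind g ((tv (C.φ a) : Sp2 k) : Matrix (Fin k ⊕ Fin k) (Fin k ⊕ Fin k) (ZMod 2)) := by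
  intro y
  have hac : ∀ x, ((tv (C.φ a) : Sp2 k) : Matrix (Fin k ⊕ Fin k) (Fin k ⊕ Fin k) (ZMod 2)) *ᵥ x =
      x + bf x (C.φ a) • C.φ a := ac_tv (C.φ a)
  rcases z2 (bf (C.φ y) (C.φ a)) with h | h
  · refine ⟨y, ?_, by rw [hac, h, zero_smul, add_zero]⟩
    have hc := comm_sF C y a
    rw [h, sF_zero, one_smul] at hc
    rw [mul_inv_eq_iff_eq_mul]
    apply Units.ext
    rw [Units.val_mul, Units.val_mul, hg, Matrix.add_mul, Matrix.mul_add, Matrix.one_mul, Matrix.mul_one, hc]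
  · refine ⟨a * y, ?_, by rw [hac, h, one_smul, C.map_mul, add_comm]⟩
    have hc := comm_sF C y a
    rw [h, sF_one, neg_smul, one_smul] at hc
    have hsq : ((a : GL ι F) : Matrix ι ι F) * ((a : GL ι F) : Matrix ι ι F) = -1 := by
      rw [T.sqs, ha, sF_one, neg_smul, one_smul]
    rw [mul_inv_eq_iff_eq_mul]
    apply Units.ext
    rw [Units.val_mul, Units.val_mul, Subgroup.coe_mul, Units.val_mul, hg, Matrix.add_mul, Matrix.mul_add,
      Matrix.one_mul, Matrix.mul_one, Matrix.mul_assoc, hc, Matrix.mul_neg, ← Matrix.mul_assoc, hsq]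
    rw [Matrix.neg_mul, Matrix.one_mul, neg_neg, add_comm]

/-- the normalised product of two transvection elements -/
theorem exists_pair {a b : R} (ha : q (C.φ a) = 1) (hb : q (C.φ b) = 1) :
    ∃ g : GL ι F, (g : Matrix ι ι F) = (2 : F)⁻¹ • ((1 + ((a : GL ι F) : Matrix ι ι F)) * (1 + ((b : GL ι F) : Matrix ι ι F))) ∧
      C.Ind g ((tv (C.φ a) * tv (C.φ b) : Sp2 k) : Matrix (Fin k ⊕ Fin k) (Fin k ⊕ Fin k) (ZMod 2)) := by
  obtain ⟨s, hs, -⟩ := T.exists_tau ha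
  obtain ⟨t, ht, -⟩ := T.exists_tau hb
  have hi := (T.ind_tau ha hs).mul (T.ind_tau hb ht)
  -- the scalar 2⁻¹
  let z : GL ι F := Units.map (Matrix.scalar ι : F →+* Matrix ι ι F).toMonoidHom (Units.mk0 (2 : F)⁻¹ (inv_ne_zero T.two))
  have hz : (z : Matrix ι ι F) = (2 : F)⁻¹ • 1 := by
    simp [z, Matrix.smul_one_eq_diagonal]
  have hzs : z ∈ scalars ι F := ⟨_, rfl⟩
  refine ⟨z * (s * t), ?_, ?_⟩
  · rw [Units.val_mul, Units.val_mul, hz, hs, ht, Matrix.smul_mul, Matrix.one_mul]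
  · intro y
    obtain ⟨y', h1, h3⟩ := hi y
    refine ⟨y', ?_, h3⟩
    rw [← h1]
    have hzc : ∀ g : GL ι F, z * g = g * z := fun g => scalars_comm hzs g
    calc z * (s * t) * y * (z * (s * t))⁻¹ = z * (s * t * y * (s * t)⁻¹) * z⁻¹ := by group
      _ = (s * t * y * (s * t)⁻¹) * z * z⁻¹ := by rw [hzc]
      _ = _ := by rw [mul_inv_cancel_right]

end TC

end Cfsg.Agent.H888.C6
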