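import Cfsg.Agent.ClassicalGeometry.SympIso

/-!
# Quadratic forms over the field of two elements with polar form `sympForm` (helper888)

* `IsQ.exQ2`, `IsQ.exQ1` : values of the form on hyperplanes and codimension two subspaces;
* `IsQ.trans` : transitivity of the group generated by products of two transvections;
* `IsQ.card_one`, `IsQ.card_zero` : numbers of vectors (Gauss sum).
-/

set_option autoImplicit false

namespace Cfsg.Agent.H888.C6

open Cfsg Cfsg.Agent.ClassicalGeometry.SympBasic

/-- the space -/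
abbrev V2 (k : ℕ) : Type := Fin k ⊕ Fin k → ZMod 2

/-- the form -/
abbrev bf {k : ℕ} (v w : V2 k) : ZMod 2 := sympForm k (ZMod 2) v w

theorem z2 : ∀ a : ZMod 2, a = 0 ∨ a = 1 := by decide
theorem z2_ne : (1 : ZMod 2) ≠ 0 := by decide
theorem z2_two : ∀ a : ZMod 2, a + a = 0 := by decide

variable {k : ℕ}

theorem v2_two (v : V2 k) : v + v = 0 := funext fun i => z2_two (v i)

theorem v2_eq_of_add {v w : V2 k} (h : v + w = 0) : v = w := by
  calc v = v + (w + w) := by rw [v2_two, add_zero]
    _ = w := by rw [← add_assoc, h, zero_add]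

theorem bf_comm (v w : V2 k) : bf v w = bf w v := by
  rw [bf, sympForm_swap]
  exact neg_eq_of_add_eq_zero_left (z2_two _)

theorem bf_add_left (u v w : V2 k) : bf (u + v) w = bf u w + bf v w := sympForm_add_left _ _ _
theorem bf_add_right (u v w : V2 k) : bf u (v + w) = bf u v + bf u w := sympForm_add_right _ _ _
theorem bf_self (v : V2 k) : bf v v = 0 := sympForm_self v
theorem bf_zero_left (v : V2 k) : bf (0 : V2 k) v = 0 := sympForm_zero_left v
theorem bf_zero_right (v : V2 k) : bf v (0 : V2 k) = 0 := sympForm_zero_right v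

theorem exists_bf_one {v : V2 k} (hv : v ≠ 0) : ∃ w, bf w v = 1 := by
  by_contra hcon
  push Not at hcon
  exact hv (eq_zero_of_forall_sympForm_left fun w => (z2 _).resolve_right (hcon w))

/-- A quadratic form with polar form `bf`. -/
structure IsQ (q : V2 k → ZMod 2) : Prop where
  add : ∀ v w, q (v + w) = q v + q w + bf v w

namespace IsQ

variable {q : V2 k → ZMod 2} (hq : IsQ q)

include hq

theorem zero : q 0 = 0 := by
  have h := hq.add 0 0
  rw [add_zero, bf_self, add_zero, z2_two] at h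
  exact h

end IsQ

/-- two functionals on the space have independent values -/
theorem exists_bf_pair {a b : V2 k} (ha : a ≠ 0) (hb : b ≠ 0) (hab : a ≠ b) (α β : ZMod 2) :
    ∃ v, bf v a = α ∧ bf v b = β := by
  obtain ⟨x, hx⟩ := exists_bf_one ha
  obtain ⟨y, hy⟩ := exists_bf_one hb
  have hab' : a + b ≠ 0 := fun h => hab (v2_eq_of_add h)
  obtain ⟨z, hz⟩ := exists_bf_one hab'
  rw [bf_add_right] at hz
  -- vectors with values (1,0) and (0,1)
  have h10 : ∃ v, bf v a = 1 ∧ bf v b = 0 := by
    rcases z2 (bf x b) with h | h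
    · exact ⟨x, hx, h⟩
    · rcases z2 (bf z a) with h1 | h1
      · have h3 : bf z b = 1 := by rw [h1, zero_add] at hz; exact hz
        refine ⟨x + z, ?_, ?_⟩
        · rw [bf_add_left, hx, h1, add_zero]
        · rw [bf_add_left, h, h3, z2_two]
      · have h3 : bf z b = 0 := by
          rw [h1] at hz
          rcases z2 (bf z b) with h4 | h4
          · exact h4
          · rw [h4] at hz; exact absurd hz (by decide)
        exact ⟨z, h1, h3⟩
  have h01 : ∃ v, bf v a = 0 ∧ bf v b = 1 := by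
    obtain ⟨v, h1, h3⟩ := h10
    rcases z2 (bf y a) with h | h
    · exact ⟨y, h, hy⟩
    · refine ⟨y + v, ?_, ?_⟩
      · rw [bf_add_left, h, h1, z2_two]
      · rw [bf_add_left, hy, h3, add_zero]
  obtain ⟨v, h1, h3⟩ := h10
  obtain ⟨w, h5, h6⟩ := h01
  rcases z2 α with rfl | rfl <;> rcases z2 β with rfl | rfl
  · exact ⟨0, bf_zero_left _, bf_zero_left _⟩
  · exact ⟨w, h5, h6⟩
  · exact ⟨v, h1, h3⟩
  · refine ⟨v + w, ?_, ?_⟩
    · rw [bf_add_left, h1, h5, add_zero]
    · rw [bf_add_left, h3, h6, zero_add]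

/-- the codimension two subspace is not totally isotropic -/
theorem exists_perp_pair (hk : 3 ≤ k) (a b : V2 k) :
    ∃ u u' : V2 k, bf u a = 0 ∧ bf u b = 0 ∧ bf u' a = 0 ∧ bf u' b = 0 ∧ bf u u' = 1 := by
  classical
  by_contra hcon
  push Not at hcon
  -- the subspace
  let B := sympBilin k (ZMod 2)
  let f : V2 k →ₗ[ZMod 2] (Fin 2 → ZMod 2) := LinearMap.pi ![B.flip a, B.flip b]
  have hf : ∀ v, v ∈ LinearMap.ker f ↔ bf v a = 0 ∧ bf v b = 0 := by
    intro v
    rw [LinearMap.mem_ker]
    constructor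
    · intro h
      exact ⟨congrFun h 0, congrFun h 1⟩
    · rintro ⟨h1, h3⟩
      funext i
      fin_cases i
      · exact h1
      · exact h3
  have hiso : LinearMap.ker f ≤ LinearMap.BilinForm.orthogonal B (LinearMap.ker f) := by
    intro u hu
    rw [LinearMap.BilinForm.mem_orthogonal_iff]
    intro u' hu'
    have h1 := (hf u).1 hu
    have h3 := (hf u').1 hu'
    exact (z2 _).resolve_right (hcon u' u h3.1 h3.2 h1.1 h1.2)
  have hrank : Module.finrank (ZMod 2) (LinearMap.range f) + Module.finrank (ZMod 2) (LinearMap.ker f) =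
      Module.finrank (ZMod 2) (V2 k) := LinearMap.finrank_range_add_finrank_ker f
  have h2k : Module.finrank (ZMod 2) (V2 k) = 2 * k := by
    rw [Module.finrank_fintype_fun_eq_card, Fintype.card_sum, Fintype.card_fin]; ring
  have h1 : Module.finrank (ZMod 2) (LinearMap.range f) ≤ 2 := by
    refine (Submodule.finrank_le _).trans ?_
    rw [Module.finrank_fintype_fun_eq_card, Fintype.card_fin]
  have h3 : Module.finrank (ZMod 2) (LinearMap.BilinForm.orthogonal B (LinearMap.ker f)) =
      Module.finrank (ZMod 2) (V2 k) - Module.finrank (ZMod 2) (LinearMap.ker f) :=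
    LinearMap.BilinForm.finrank_orthogonal sympBilin_nondegenerate (LinearMap.ker f)
  have h4 : Module.finrank (ZMod 2) (LinearMap.ker f) ≤
      Module.finrank (ZMod 2) (LinearMap.BilinForm.orthogonal B (LinearMap.ker f)) :=
    Submodule.finrank_mono hiso
  omega

namespace IsQ

variable {q : V2 k → ZMod 2} (hq : IsQ q)

include hq

theorem exQ2 (hk : 3 ≤ k) {a b : V2 k} (ha : a ≠ 0) (hb : b ≠ 0) (hab : a ≠ b) (α β ε : ZMod 2) :
    ∃ v, bf v a = α ∧ bf v b = β ∧ q v = ε := by
  obtain ⟨v, hv1, hv2⟩ := exists_bf_pair ha hb hab α β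
  obtain ⟨u, u', h1, h3, h4, h5, h6⟩ := exists_perp_pair hk a b
  by_contra hcon
  push Not at hcon
  have key : ∀ w, bf w a = 0 → bf w b = 0 → q (v + w) = 1 + ε := by
    intro w hw1 hw2
    have h7 := hcon (v + w) (by rw [bf_add_left, hv1, hw1, add_zero]) (by rw [bf_add_left, hv2, hw2, add_zero])
    have h8 : ∀ x ε : ZMod 2, x ≠ ε → x = 1 + ε := by decide
    exact h8 _ _ h7
  have e0 := key 0 (bf_zero_left _) (bf_zero_left _)
  have e1 := key u h1 h3
  have e2 := key u' h4 h5
  have e3 := key (u + u') (by rw [bf_add_left, h1, h4, add_zero]) (by rw [bf_add_left, h3, h5, add_zero])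
  rw [add_zero] at e0
  rw [hq.add v u] at e1
  rw [hq.add v u'] at e2
  rw [hq.add v, hq.add u u', bf_add_right, h6] at e3
  have h9 : ∀ x y z s t ε : ZMod 2, x = 1 + ε → x + y + s = 1 + ε → x + z + t = 1 + ε →
      x + (y + z + 1) + (s + t) = 1 + ε → False := by decide
  exact h9 _ _ _ _ _ _ e0 e1 e2 e3

theorem exQ1 (hk : 3 ≤ k) {a : V2 k} (ha : a ≠ 0) (α ε : ZMod 2) : ∃ v, bf v a = α ∧ q v = ε := by
  obtain ⟨w, hw⟩ := exists_bf_one ha
  have hw0 : w ≠ 0 := by rintro rfl; rw [bf_zero_left] at hw; exact z2_ne hw.symm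
  have hwa : a ≠ w := by rintro rfl; rw [bf_self] at hw; exact z2_ne hw.symm
  obtain ⟨v, h1, -, h3⟩ := hq.exQ2 hk ha hw0 hwa α 0 ε
  exact ⟨v, h1, h3⟩

end IsQ

end Cfsg.Agent.H888.C6
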