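import Cfsg.Agent.H888.C6.QF

/-!
# The group generated by products of two transvections (helper888)

`Wq q` : the subgroup of `Sp_{2k}(2)` generated by the products of two transvections with centres `a`, `q a = 1`.
* `IsQ.Wq_perfect`, `IsQ.Wq_trans`, `IsQ.Wq_q`;
* `IsQ.two_card_one`, `IsQ.two_card_zero` : Gauss sum bounds.
-/

set_option autoImplicit false
set_option linter.unusedSectionVars false

namespace Cfsg.Agent.H888.C6

open Cfsg Cfsg.Agent.ClassicalGeometry.SympBasic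
open scoped commutatorElement

variable {k : ℕ}

/-- the symplectic group -/
abbrev Sp2 (k : ℕ) := Matrix.symplecticGroup (Fin k) (ZMod 2)

/-- the transvection with centre `a` -/
def tv (a : V2 k) : Sp2 k := transv a 1

/-- the action -/
def ac (A : Sp2 k) (x : V2 k) : V2 k := (A : Matrix (Fin k ⊕ Fin k) (Fin k ⊕ Fin k) (ZMod 2)).mulVec x

theorem ac_mul (A B : Sp2 k) (x : V2 k) : ac (A * B) x = ac A (ac B x) := coe_mul_mulVec A B x
theorem ac_one (x : V2 k) : ac 1 x = x := Matrix.one_mulVec x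
theorem ac_add (A : Sp2 k) (x y : V2 k) : ac A (x + y) = ac A x + ac A y := Matrix.mulVec_add _ _ _
theorem ac_bf (A : Sp2 k) (x y : V2 k) : bf (ac A x) (ac A y) = bf x y := sympForm_mulVec A.2 x y

theorem ac_ext {A B : Sp2 k} (h : ∀ x, ac A x = ac B x) : A = B := by
  apply Subtype.ext
  exact Matrix.mulVec_injective (funext h)

theorem ac_tv (a x : V2 k) : ac (tv a) x = x + bf x a • a := by
  change (sympTransvection k a 1).mulVec x = _
  rw [sympTransvection_mulVec, one_mul]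

theorem ac_tv_zero {a x : V2 k} (h : bf x a = 0) : ac (tv a) x = x := by
  rw [ac_tv, h, zero_smul, add_zero]

theorem ac_tv_one {a x : V2 k} (h : bf x a = 1) : ac (tv a) x = x + a := by
  rw [ac_tv, h, one_smul]

theorem tv_sq (a : V2 k) : tv a * tv a = 1 := by
  apply ac_ext
  intro x
  rw [ac_mul, ac_one]
  rcases z2 (bf x a) with h | h
  · rw [ac_tv_zero h, ac_tv_zero h]
  · rw [ac_tv_one h, ac_tv_one (by rw [bf_add_left, bf_self, add_zero, h]), add_assoc, v2_two, add_zero]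

theorem tv_inv (a : V2 k) : (tv a)⁻¹ = tv a := inv_eq_of_mul_eq_one_left (tv_sq a)

theorem tv_conj (A : Sp2 k) (a : V2 k) : A * tv a = tv (ac A a) * A := by
  apply ac_ext
  intro x
  rw [ac_mul, ac_mul, ac_tv, ac_tv, ac_add, ac_bf]
  rcases z2 (bf x a) with h | h
  · rw [h, zero_smul, zero_smul, show ac A 0 = 0 from Matrix.mulVec_zero _]
  · rw [h, one_smul, one_smul]

theorem tv_comm {a b : V2 k} (h : bf a b = 0) : tv a * tv b = tv b * tv a := by
  rw [tv_conj, ac_tv_zero (by rw [bf_comm]; exact h)]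

theorem tv_braid {a b : V2 k} (h : bf a b = 1) : tv a * tv b * tv a = tv b * tv a * tv b := by
  have h1 : tv a * tv b * tv a = tv (a + b) := by
    rw [tv_conj (tv a) b, ac_tv_one (by rw [bf_comm]; exact h), mul_assoc, tv_sq, mul_one, add_comm]
  have h3 : tv b * tv a * tv b = tv (a + b) := by
    rw [tv_conj (tv b) a, ac_tv_one h, mul_assoc, tv_sq, mul_one]
  rw [h1, h3]

theorem tv_cube {a b : V2 k} (h : bf a b = 1) : tv b * tv a * (tv b * tv a) = tv a * tv b := by
  calc tv b * tv a * (tv b * tv a) = tv b * (tv a * tv b * tv a) := by group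
    _ = tv b * (tv b * tv a * tv b) := by rw [tv_braid h]
    _ = (tv b * tv b) * (tv a * tv b) := by group
    _ = tv a * tv b := by rw [tv_sq, one_mul]

/-- The generators. -/
def gens (q : V2 k → ZMod 2) : Set (Sp2 k) := {A | ∃ a b, q a = 1 ∧ q b = 1 ∧ A = tv a * tv b}

/-- The group. -/
def Wq (q : V2 k → ZMod 2) : Subgroup (Sp2 k) := Subgroup.closure (gens q)

theorem mem_Wq {q : V2 k → ZMod 2} {a b : V2 k} (ha : q a = 1) (hb : q b = 1) : tv a * tv b ∈ Wq q :=
  Subgroup.subset_closure ⟨a, b, ha, hb, rfl⟩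

namespace IsQ

variable {q : V2 k → ZMod 2} (hq : IsQ q)

include hq

theorem ne_zero {a : V2 k} (h : q a = 1) : a ≠ 0 := by
  rintro rfl
  rw [hq.zero] at h
  exact z2_ne h.symm

theorem q_tv {a : V2 k} (h : q a = 1) (x : V2 k) : q (ac (tv a) x) = q x := by
  rcases z2 (bf x a) with h1 | h1
  · rw [ac_tv_zero h1]
  · rw [ac_tv_one h1, hq.add, h, h1, add_assoc, z2_two, add_zero]

theorem Wq_q {A : Sp2 k} (hA : A ∈ Wq q) (x : V2 k) : q (ac A x) = q x := by
  revert x
  refine Subgroup.closure_induction (p := fun A _ => ∀ x, q (ac A x) = q x) ?_ ?_ ?_ ?_ hA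
  · rintro _ ⟨a, b, ha, hb, rfl⟩ x
    rw [ac_mul, hq.q_tv ha, hq.q_tv hb]
  · intro x; rw [ac_one]
  · intro A B _ _ h1 h3 x; rw [ac_mul, h1, h3]
  · intro A _ h x
    have := h (ac A⁻¹ x)
    rw [← ac_mul, mul_inv_cancel, ac_one] at this
    exact this.symm

/-- a generator with `bf a b = 1` is a commutator -/
theorem gen_commutator (hk : 3 ≤ k) {a b : V2 k} (ha : q a = 1) (hb : q b = 1) (hab : bf a b = 1) :
    ∃ c, q c = 1 ∧ tv a * tv b = ⁅tv a * tv c, tv a * tv b⁆ := by
  have hne : a ≠ b := by rintro rfl; rw [bf_self] at hab; exact z2_ne hab.symm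
  obtain ⟨c, h1, h3, h4⟩ := hq.exQ2 hk (hq.ne_zero ha) (hq.ne_zero hb) hne 0 0 1
  refine ⟨c, h4, ?_⟩
  have hca : tv c * tv a = tv a * tv c := tv_comm h1
  have hcb : tv c * tv b = tv b * tv c := tv_comm h3
  rw [commutatorElement_def, mul_inv_rev, mul_inv_rev, tv_inv, tv_inv, tv_inv]
  symm
  calc tv a * tv c * (tv a * tv b) * (tv c * tv a) * (tv b * tv a)
      = tv a * (tv c * tv a) * tv b * tv c * tv a * (tv b * tv a) := by group
    _ = tv a * (tv a * tv c) * tv b * tv c * tv a * (tv b * tv a) := by rw [hca]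
    _ = (tv a * tv a) * (tv c * tv b) * tv c * tv a * (tv b * tv a) := by group
    _ = (tv a * tv a) * (tv b * tv c) * tv c * tv a * (tv b * tv a) := by rw [hcb]
    _ = (tv a * tv a) * tv b * (tv c * tv c) * tv a * (tv b * tv a) := by group
    _ = tv b * tv a * (tv b * tv a) := by rw [tv_sq, tv_sq, one_mul, mul_one]
    _ = tv a * tv b := tv_cube hab

/-- every generator is a product of generators with `bf a b = 1` -/
theorem gen_split (hk : 3 ≤ k) {a b : V2 k} (ha : q a = 1) (hb : q b = 1) :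
    a = b ∨ bf a b = 1 ∨ ∃ c, q c = 1 ∧ bf a c = 1 ∧ bf c b = 1 ∧ tv a * tv b = (tv a * tv c) * (tv c * tv b) := by
  by_cases hab : a = b
  · exact Or.inl hab
  right
  rcases z2 (bf a b) with h | h
  · right
    obtain ⟨c, h1, h3, h4⟩ := hq.exQ2 hk (hq.ne_zero ha) (hq.ne_zero hb) hab 1 1 1
    refine ⟨c, h4, by rw [bf_comm]; exact h1, h3, ?_⟩
    calc tv a * tv b = tv a * (tv c * tv c) * tv b := by rw [tv_sq, mul_one]
      _ = _ := by group
  · exact Or.inl h

theorem Wq_perfect (hk : 3 ≤ k) : ⁅Wq q, Wq q⁆ = Wq q := by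
  apply le_antisymm (Subgroup.commutator_le_self _)
  unfold Wq
  rw [Subgroup.closure_le]
  have key : ∀ a b, q a = 1 → q b = 1 → bf a b = 1 → tv a * tv b ∈ ⁅Subgroup.closure (gens q), Subgroup.closure (gens q)⁆ := by
    intro a b ha hb hab
    obtain ⟨c, hc, h⟩ := hq.gen_commutator hk ha hb hab
    rw [h]
    exact Subgroup.commutator_mem_commutator (mem_Wq ha hc) (mem_Wq ha hb)
  rintro _ ⟨a, b, ha, hb, rfl⟩
  rcases hq.gen_split hk ha hb with h | h | ⟨c, hc, h1, h3, h4⟩
  · rw [h, tv_sq]; exact Subgroup.one_mem _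
  · exact key a b ha hb h
  · rw [h4]
    exact Subgroup.mul_mem _ (key a c ha hc h1) (key c b hc hb h3)

/-- transitivity -/
theorem Wq_trans (hk : 3 ≤ k) {a b : V2 k} (ha : a ≠ 0) (hb : b ≠ 0) (hab : q a = q b) :
    ∃ A ∈ Wq q, ac A a = b := by
  have key : ∀ a b : V2 k, a ≠ 0 → q a = q b → bf a b = 1 → ∃ A ∈ Wq q, ac A a = b := by
    intro a b ha hab h
    obtain ⟨d, hd1, hd2⟩ := hq.exQ1 hk ha 0 1
    have hs : q (a + b) = 1 := by rw [hq.add, hab, h, z2_two, zero_add]
    refine ⟨tv (a + b) * tv d, mem_Wq hs hd2, ?_⟩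
    have e1 : ac (tv d) a = a := ac_tv_zero (by rw [bf_comm]; exact hd1)
    have e2 : bf a (a + b) = 1 := by rw [bf_add_right, bf_self, h, zero_add]
    rw [ac_mul, e1, ac_tv_one e2, ← add_assoc, v2_two, zero_add]
  by_cases hne : a = b
  · exact ⟨1, Subgroup.one_mem _, by rw [ac_one, hne]⟩
  rcases z2 (bf a b) with h | h
  · obtain ⟨c, h1, h3, h4⟩ := hq.exQ2 hk ha hb hne 1 1 (q a)
    have hc : c ≠ 0 := by rintro rfl; rw [bf_zero_left] at h1; exact z2_ne h1.symm
    obtain ⟨A, hA, hA'⟩ := key a c ha h4.symm (by rw [bf_comm]; exact h1)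
    obtain ⟨B, hB, hB'⟩ := key c b hc (by rw [h4, hab]) h3
    exact ⟨B * A, Subgroup.mul_mem _ hB hA, by rw [ac_mul, hA', hB']⟩
  · exact key a b ha hab h

end IsQ

/-! ### Gauss sums -/

/-- the sign -/
def sg (x : ZMod 2) : ℤ := if x = 0 then 1 else -1

theorem sg_add : ∀ x y : ZMod 2, sg (x + y) = sg x * sg y := by decide
theorem sg_sq : ∀ x : ZMod 2, sg x * sg x = 1 := by decide
theorem sg_succ : ∀ x : ZMod 2, sg (x + 1) = - sg x := by decide

theorem sum_sg_bf {u : V2 k} (hu : u ≠ 0) : ∑ v : V2 k, sg (bf v u) = 0 := by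
  obtain ⟨w, hw⟩ := exists_bf_one hu
  have h1 : ∑ v : V2 k, sg (bf (v + w) u) = ∑ v : V2 k, sg (bf v u) :=
    Fintype.sum_equiv (Equiv.addRight w) _ _ (fun v => rfl)
  have h3 : ∑ v : V2 k, sg (bf (v + w) u) = - ∑ v : V2 k, sg (bf v u) := by
    rw [← Finset.sum_neg_distrib]
    refine Finset.sum_congr rfl fun v _ => ?_
    rw [bf_add_left, hw, sg_succ]
  rw [h3] at h1
  linarith

theorem card_v2 : Fintype.card (V2 k) = 2 ^ (2 * k) := by
  rw [Fintype.card_fun, ZMod.card, Fintype.card_sum, Fintype.card_fin]; congr 1; ring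

namespace IsQ

variable {q : V2 k → ZMod 2} (hq : IsQ q)

include hq

theorem gauss : (∑ v : V2 k, sg (q v)) * (∑ v : V2 k, sg (q v)) = 2 ^ (2 * k) := by
  have h1 : (∑ v : V2 k, sg (q v)) * (∑ v : V2 k, sg (q v)) = ∑ v : V2 k, ∑ w : V2 k, sg (q v) * sg (q (v + w)) := by
    rw [Finset.sum_mul]
    refine Finset.sum_congr rfl fun v _ => ?_
    rw [Finset.mul_sum]
    exact (Fintype.sum_equiv (Equiv.addLeft v) _ _ (fun w => rfl)).symm
  rw [h1]
  have h3 : ∀ v w : V2 k, sg (q v) * sg (q (v + w)) = sg (q w) * sg (bf v w) := by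
    intro v w
    rw [hq.add, sg_add, sg_add, ← mul_assoc, ← mul_assoc, sg_sq, one_mul]
  simp only [h3]
  rw [Finset.sum_comm, Finset.sum_eq_single (0 : V2 k)]
  · rw [hq.zero]
    have h4 : ∀ v : V2 k, sg 0 * sg (bf v 0) = 1 := fun v => by rw [bf_zero_right]; rfl
    simp only [h4]
    rw [Finset.sum_const, Finset.card_univ, card_v2]
    simp
  · intro w _ hw
    rw [← Finset.mul_sum, sum_sg_bf hw, mul_zero]
  · intro h; exact absurd (Finset.mem_univ _) h

theorem gauss_abs : (∑ v : V2 k, sg (q v)) = 2 ^ k ∨ (∑ v : V2 k, sg (q v)) = - 2 ^ k := by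
  have h := hq.gauss
  rw [show (2 : ℤ) ^ (2 * k) = 2 ^ k * 2 ^ k by rw [two_mul, pow_add]] at h
  exact mul_self_eq_mul_self_iff.1 h

theorem count : (Fintype.card {v : V2 k // q v = 0} : ℤ) + Fintype.card {v : V2 k // q v = 1} = 2 ^ (2 * k) ∧
    (Fintype.card {v : V2 k // q v = 0} : ℤ) - Fintype.card {v : V2 k // q v = 1} = ∑ v : V2 k, sg (q v) := by
  classical
  have h0 : (Fintype.card {v : V2 k // q v = 0} : ℤ) = ∑ v : V2 k, if q v = 0 then 1 else 0 := by
    rw [Fintype.card_subtype]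
    simp
  have h1 : (Fintype.card {v : V2 k // q v = 1} : ℤ) = ∑ v : V2 k, if q v = 1 then 1 else 0 := by
    rw [Fintype.card_subtype]
    simp
  constructor
  · rw [h0, h1, ← Finset.sum_add_distrib]
    have h3 : ∀ v : V2 k, ((if q v = 0 then 1 else 0) + (if q v = 1 then 1 else 0) : ℤ) = 1 := by
      intro v
      rcases z2 (q v) with h | h <;> rw [h] <;> decide
    simp only [h3]
    rw [Finset.sum_const, Finset.card_univ, card_v2]
    simp
  · rw [h0, h1, ← Finset.sum_sub_distrib]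
    refine Finset.sum_congr rfl fun v _ => ?_
    rcases z2 (q v) with h | h <;> rw [h] <;> decide

theorem two_card_one : 2 ^ (2 * k) ≤ 2 * Fintype.card {v : V2 k // q v = 1} + 2 ^ k := by
  have h1 := hq.count.1
  have h3 := hq.count.2
  rcases hq.gauss_abs with h | h <;> rw [h] at h3
  · have : (2 : ℤ) ^ (2 * k) ≤ 2 * Fintype.card {v : V2 k // q v = 1} + 2 ^ k := by linarith
    exact_mod_cast this
  · have hpos : (0 : ℤ) < 2 ^ k := by positivity
    have : (2 : ℤ) ^ (2 * k) ≤ 2 * Fintype.card {v : V2 k // q v = 1} + 2 ^ k := by linarith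
    exact_mod_cast this

theorem two_card_zero : 2 ^ (2 * k) ≤ 2 * Fintype.card {v : V2 k // q v = 0} + 2 ^ k := by
  have h1 := hq.count.1
  have h3 := hq.count.2
  rcases hq.gauss_abs with h | h <;> rw [h] at h3
  · have hpos : (0 : ℤ) < 2 ^ k := by positivity
    have : (2 : ℤ) ^ (2 * k) ≤ 2 * Fintype.card {v : V2 k // q v = 0} + 2 ^ k := by linarith
    exact_mod_cast this
  · have : (2 : ℤ) ^ (2 * k) ≤ 2 * Fintype.card {v : V2 k // q v = 0} + 2 ^ k := by linarith
    exact_mod_cast this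

end IsQ

end Cfsg.Agent.H888.C6
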