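import Cfsg.Agent.H888.C6.Red1

/-!
# Reduction, part 2: normal subgroups abelian modulo scalars (helper888)
-/

set_option autoImplicit false

namespace Cfsg.Agent.H888.C6

open Cfsg Cfsg.Geo Matrix Cfsg.Agent.ClassicalGeometry.SympBasic Cfsg.Agent.H920
open scoped commutatorElement

variable {ι : Type} [Fintype ι] [DecidableEq ι] {F : Type*} [Field F] {R : Subgroup (GL ι F)} {k : ℕ}
variable {C : Coord R 2 k} {q : V2 k → ZMod 2} {Y : Subgroup (GL ι F)}

theorem scalars_normal : (scalars ι F).Normal := by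
  constructor
  intro z hz g
  rw [← scalars_comm hz, mul_inv_cancel_right]
  exact hz

/-- A 2-group `R` normalising `N`, `|N / scalars|` even: a non-scalar element of `N` commutes with `R` modulo scalars. -/
theorem exists_fixed [Finite F] {N : Subgroup (GL ι F)} (hR2 : IsPGroup 2 R)
    (hn : ∀ x ∈ R, ∀ y ∈ N, x * y * x⁻¹ ∈ N) (hc : 2 ∣ Nat.card (N ⧸ (scalars ι F).subgroupOf N)) :
    ∃ y ∈ N, y ∉ scalars ι F ∧ ∀ x ∈ R, x * y * x⁻¹ * y⁻¹ ∈ scalars ι F := by
  classical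
  have hsn : (scalars ι F).Normal := scalars_normal
  have hfin : Finite (GL ι F) := inferInstance
  let mk : GL ι F →* GL ι F ⧸ scalars ι F := QuotientGroup.mk' _
  let f : N →* GL ι F ⧸ scalars ι F := mk.comp N.subtype
  have hker : f.ker = (scalars ι F).subgroupOf N := by
    ext x
    rw [MonoidHom.mem_ker, Subgroup.mem_subgroupOf]
    change mk (x : GL ι F) = 1 ↔ _
    rw [QuotientGroup.mk'_apply, QuotientGroup.eq_one_iff]
  have hcard : Nat.card f.range = Nat.card (N ⧸ (scalars ι F).subgroupOf N) := by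
    rw [← hker]
    exact (Nat.card_congr (QuotientGroup.quotientKerEquivRange f).toEquiv).symm
  have hmem : ∀ (r : R) (x : f.range), mk r * x * (mk r)⁻¹ ∈ f.range := by
    rintro r ⟨_, y, rfl⟩
    exact ⟨⟨r * y * (r : GL ι F)⁻¹, hn r r.2 y y.2⟩, by
      change mk (r * y * (r : GL ι F)⁻¹) = _
      rw [map_mul, map_mul, map_inv]; rfl⟩
  letI act : MulAction R f.range :=
    { smul := fun r x => ⟨mk r * x * (mk r)⁻¹, hmem r x⟩
      one_smul := fun x => by
        apply Subtype.ext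
        change mk ((1 : R) : GL ι F) * x * (mk ((1 : R) : GL ι F))⁻¹ = x
        rw [Subgroup.coe_one, map_one]; group
      mul_smul := fun r s x => by
        apply Subtype.ext
        change mk ((r * s : R) : GL ι F) * x * (mk ((r * s : R) : GL ι F))⁻¹ = mk r * (mk s * x * (mk s)⁻¹) * (mk r)⁻¹
        rw [Subgroup.coe_mul, map_mul]; group }
  have h1 := hR2.card_modEq_card_fixedPoints f.range
  have h3 : 2 ∣ Nat.card (MulAction.fixedPoints R f.range) := by
    rw [← hcard] at hc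
    exact (Nat.modEq_zero_iff_dvd.1 (h1.symm.trans (Nat.modEq_zero_iff_dvd.2 hc)))
  have hone : (1 : f.range) ∈ MulAction.fixedPoints R f.range := by
    intro r
    apply Subtype.ext
    change mk r * ((1 : f.range) : GL ι F ⧸ scalars ι F) * (mk r)⁻¹ = ((1 : f.range) : GL ι F ⧸ scalars ι F)
    rw [Subgroup.coe_one]; group
  have hpos : 0 < Nat.card (MulAction.fixedPoints R f.range) := by
    haveI : Nonempty (MulAction.fixedPoints R f.range) := ⟨⟨1, hone⟩⟩
    exact Nat.card_pos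
  have h4 : 1 < Nat.card (MulAction.fixedPoints R f.range) := by
    obtain ⟨c, hc⟩ := h3
    omega
  haveI : Finite (MulAction.fixedPoints R f.range) := inferInstance
  rw [Finite.one_lt_card_iff_nontrivial] at h4
  obtain ⟨⟨x, hx⟩, hx1⟩ := exists_ne (⟨1, hone⟩ : MulAction.fixedPoints R f.range)
  obtain ⟨x, y, rfl⟩ := x
  refine ⟨y, y.2, ?_, ?_⟩
  · intro hy
    apply hx1
    apply Subtype.ext
    apply Subtype.ext
    change mk (y : GL ι F) = 1
    rw [QuotientGroup.mk'_apply, QuotientGroup.eq_one_iff]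
    exact hy
  · intro r hr
    have h5 := congrArg Subtype.val (hx ⟨r, hr⟩)
    change mk r * mk y * (mk r)⁻¹ = mk y at h5
    rw [← QuotientGroup.eq_one_iff]
    change mk (r * y * r⁻¹ * (y : GL ι F)⁻¹) = 1
    rw [map_mul, map_mul, map_mul, map_inv, map_inv, h5, mul_inv_cancel]

/-- **Case 1.** -/
theorem YCore.norm_of_abelian [Finite F] [Nonempty ι] (T : TC C q) (hk : 3 ≤ k) (hY : YCore C q Y)
    (habs : ActsAbsolutelyIrreducibly (matrixSet R)) (hR2 : IsPGroup 2 R) (hdim : Fintype.card ι = 2 ^ k)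
    {H N : Subgroup (GL ι F)} (hYH : Y ≤ H)
    (hn : ∀ h ∈ H, ∀ x ∈ N, h * x * h⁻¹ ∈ N) (hns : ¬ N ≤ scalars ι F)
    (hcomm : ∀ x ∈ N, ∀ y ∈ N, x * y * x⁻¹ * y⁻¹ ∈ scalars ι F)
    (hsc : ∀ z ∈ scalars ι F, z ∈ H → z ∈ R) : H ≤ subgroupNormalizer R := by
  classical
  have hNabs : ActsAbsolutelyIrreducibly (matrixSet N) :=
    (hY.scalar_or_absIrr T hk habs N (fun y hy => hn y (hYH hy))).resolve_left hns
  have hNcard := card_quotient_scalars hNabs hcomm
  have h2 : 2 ∣ Nat.card (N ⧸ (scalars ι F).subgroupOf N) := by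
    rw [hNcard, hdim, ← pow_mul]
    exact dvd_pow_self 2 (by omega)
  obtain ⟨y, hyN, hys, hy⟩ := exists_fixed hR2 (fun x hx => hn x (hYH (hY.le hx))) h2
  -- the vectors occurring in N
  let S : Set (V2 k) := {v | ∃ (x : R) (z : GL ι F), z ∈ scalars ι F ∧ z * x ∈ N ∧ C.φ x = v}
  have hall : ∀ v, v ∈ S := by
    apply hY.irr T.isQ hk S
    · rintro _ ⟨x, z, hz, hx, rfl⟩ _ ⟨x', z', hz', hx', rfl⟩
      refine ⟨x * x', z * z', Subgroup.mul_mem _ hz hz', ?_, C.map_mul _ _⟩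
      have h1 : z * z' * ((x * x' : R) : GL ι F) = (z * x) * (z' * x') := by
        rw [Subgroup.coe_mul]
        calc z * z' * (x * x') = z * (z' * x) * x' := by group
          _ = z * (x * z') * x' := by rw [scalars_comm hz']
          _ = _ := by group
      rw [h1]; exact Subgroup.mul_mem _ hx hx'
    · rintro A hA _ ⟨x, z, hz, hx, rfl⟩
      obtain ⟨g, hg, hi⟩ := hY.ind A hA
      obtain ⟨x', h1, h3⟩ := hi x
      refine ⟨x', z, hz, ?_, h3⟩
      have h4 := hn g (hYH hg) _ hx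
      have h5 : g * (z * x) * g⁻¹ = z * x' := by
        rw [← h1]
        calc g * (z * x) * g⁻¹ = (g * z) * x * g⁻¹ := by group
          _ = (z * g) * x * g⁻¹ := by rw [scalars_comm hz]
          _ = _ := by group
      rwa [h5] at h4
    · obtain ⟨x, z, hz, rfl⟩ := T.mem_of_commutes habs hy
      refine ⟨C.φ x, ⟨x, z, hz, hyN, rfl⟩, ?_⟩
      intro h0
      apply hys
      exact Subgroup.mul_mem _ hz ((C.ker_iff x).1 h0)
  have hRN : ∀ x ∈ R, ∃ z ∈ scalars ι F, z * x ∈ N := by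
    intro x hx
    obtain ⟨x', z, hz, h1, h3⟩ := hall (C.φ ⟨x, hx⟩)
    have h4 : ((⟨x, hx⟩ * x'⁻¹ : R) : GL ι F) ∈ scalars ι F := by
      rw [← C.ker_iff, C.map_mul, φ_neg_eq, h3, v2_two]
    rw [Subgroup.coe_mul, Subgroup.coe_inv] at h4
    change x * (x' : GL ι F)⁻¹ ∈ scalars ι F at h4
    refine ⟨z * (x * (x' : GL ι F)⁻¹)⁻¹, Subgroup.mul_mem _ hz (Subgroup.inv_mem _ h4), ?_⟩
    have h5 : z * (x * (x' : GL ι F)⁻¹)⁻¹ * x = z * x' := by group
    rw [h5]; exact h1
  -- elements of N commute with R modulo scalars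
  have hNR : ∀ y ∈ N, ∃ (x : R) (z : GL ι F), z ∈ scalars ι F ∧ y = z * x := by
    intro y hy
    apply T.mem_of_commutes habs
    intro x hx
    obtain ⟨z, hz, h1⟩ := hRN x hx
    have h3 := hcomm _ h1 _ hy
    have h4 : z * x * y * (z * x)⁻¹ * y⁻¹ = x * y * x⁻¹ * y⁻¹ := by
      have hzc := scalars_comm (Subgroup.inv_mem _ hz)
      calc z * x * y * (z * x)⁻¹ * y⁻¹ = z * (x * y * x⁻¹) * z⁻¹ * y⁻¹ := by group
        _ = z * ((x * y * x⁻¹) * z⁻¹) * y⁻¹ := by group
        _ = z * (z⁻¹ * (x * y * x⁻¹)) * y⁻¹ := by rw [← hzc]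
        _ = _ := by group
    rwa [h4] at h3
  have hkey : ∀ h ∈ H, ∀ x ∈ R, h * x * h⁻¹ ∈ R := by
    intro h hh x hx
    obtain ⟨z, hz, h1⟩ := hRN x hx
    obtain ⟨x', z', hz', h3⟩ := hNR _ (hn h hh _ h1)
    have h4 : h * x * h⁻¹ = z⁻¹ * z' * x' := by
      have : h * (z * x) * h⁻¹ = z * (h * x * h⁻¹) := by
        calc h * (z * x) * h⁻¹ = (h * z) * x * h⁻¹ := by group
          _ = (z * h) * x * h⁻¹ := by rw [scalars_comm hz]
          _ = _ := by group
      rw [this] at h3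
      calc h * x * h⁻¹ = z⁻¹ * (z * (h * x * h⁻¹)) := by group
        _ = z⁻¹ * (z' * x') := by rw [h3]
        _ = _ := by group
    have h5 : z⁻¹ * z' ∈ scalars ι F := Subgroup.mul_mem _ (Subgroup.inv_mem _ hz) hz'
    have h6 : z⁻¹ * z' ∈ H := by
      have h7 : z⁻¹ * z' = h * x * h⁻¹ * (x' : GL ι F)⁻¹ := by rw [h4]; group
      rw [h7]
      exact H.mul_mem (H.mul_mem (H.mul_mem hh (hYH (hY.le hx))) (H.inv_mem hh)) (H.inv_mem (hYH (hY.le x'.2)))
    rw [h4]
    exact R.mul_mem (hsc _ h5 h6) x'.2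
  intro h hh
  rw [subgroupNormalizer, Subgroup.mem_normalizer_iff]
  intro x
  constructor
  · exact hkey h hh x
  · intro hx
    have := hkey h⁻¹ (H.inv_mem hh) _ hx
    have h1 : h⁻¹ * (h * x * h⁻¹) * h⁻¹⁻¹ = x := by group
    rwa [h1] at this

end Cfsg.Agent.H888.C6
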