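import Cfsg.Agent.H888.C6.Red2
import Cfsg.Agent.H888.C6.FTHom

/-!
# Reduction, part 3 (helper888)

`no_wreath` : no tensor power data.
`exists_coreNS` : an overgroup `H` of `Y` not normalising `R` has a simple absolutely irreducible core.
-/

set_option autoImplicit false

namespace Cfsg.Agent.H888.C6

open Cfsg Cfsg.Geo Matrix Cfsg.Agent.ClassicalGeometry.SympBasic Cfsg.Agent.H920 Cfsg.Agent.H919
open scoped commutatorElement

variable {ι : Type} [Fintype ι] [DecidableEq ι] {F : Type*} [Field F] {R : Subgroup (GL ι F)} {k : ℕ}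
variable {C : Coord R 2 k} {q : V2 k → ZMod 2} {Y : Subgroup (GL ι F)}

/-- numerical estimate -/
theorem wreath_num {k m t : ℕ} (hk : 4 ≤ k) (hm : 2 ≤ m) (ht : 2 ≤ t) (h : m ^ t = 2 ^ k) :
    t * (m ^ 2 - 1) < N0 k ∧ t < N0 k := by
  have h1 : t ≤ 2 ^ (t - 1) := by
    have : t - 1 < 2 ^ (t - 1) := Nat.lt_two_pow_self
    omega
  have h2 : 2 ^ (t - 1) ≤ m ^ (t - 1) := Nat.pow_le_pow_left hm _
  have h3 : m ^ (t - 1) * m = 2 ^ k := by rw [← pow_succ, ← h]; congr 1; omega
  have hm2 : m ^ 2 ≤ 2 ^ k := by rw [← h]; exact Nat.pow_le_pow_right (by omega) ht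
  -- t m^2 ≤ m^(t+1) = 2^k m
  have h4 : t * m ^ 2 ≤ 2 ^ k * m := by
    calc t * m ^ 2 ≤ m ^ (t - 1) * m ^ 2 := Nat.mul_le_mul_right _ (h1.trans h2)
      _ = 2 ^ k * m := by rw [← h3]; ring
  have hn : 16 ≤ 2 ^ k := by
    calc 16 = 2 ^ 4 := by norm_num
      _ ≤ 2 ^ k := Nat.pow_le_pow_right (by norm_num) hk
  -- 4 m ≤ n
  have h5 : 4 * m ≤ 2 ^ k := by
    by_contra hcon
    push Not at hcon
    have h6 : (4 * m) * (4 * m) ≤ 16 * 2 ^ k := by nlinarith
    have h7 : 2 ^ k * 2 ^ k < (4 * m) * (4 * m) := by nlinarith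
    nlinarith
  have h8 := two_N0 (k := k) (by omega)
  obtain ⟨n, hn'⟩ : ∃ n, 2 ^ k = n + 2 := ⟨2 ^ k - 2, by omega⟩
  rw [hn'] at h8 h5 h4 hn
  rw [Nat.add_sub_cancel] at h8
  have h9 : 1 ≤ m ^ 2 := Nat.one_le_pow _ _ (by omega)
  have h10 : t * (m ^ 2 - 1) + t = t * m ^ 2 := by
    rw [Nat.mul_sub, mul_one]
    have : t ≤ t * m ^ 2 := Nat.le_mul_of_pos_right _ h9
    omega
  have h11 : 2 * (t * m ^ 2) < 2 * N0 k := by
    rw [h8]
    have : 4 * (t * m ^ 2) ≤ (n + 2) * (n + 2) := by
      calc 4 * (t * m ^ 2) ≤ 4 * ((n + 2) * m) := Nat.mul_le_mul_left _ h4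
        _ = (n + 2) * (4 * m) := by ring
        _ ≤ (n + 2) * (n + 2) := Nat.mul_le_mul_left _ h5
    nlinarith
  constructor
  · omega
  · have : t ≤ t * m ^ 2 := Nat.le_mul_of_pos_right _ h9
    omega

/-- The vectors in an `R`-invariant subalgebra-like subspace: the number is the dimension. -/
theorem TC.card_vectors [Nonempty ι] (T : TC C q) (habs : ActsAbsolutelyIrreducibly (matrixSet R))
    (U : Submodule F (Matrix ι ι F))
    (hU : ∀ x ∈ R, ∀ M ∈ U, (x : Matrix ι ι F) * M * ((x⁻¹ : GL ι F) : Matrix ι ι F) ∈ U) :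
    Nat.card {v : V2 k // EE C v ∈ U} = Module.finrank F U := by
  classical
  -- the EE are linearly independent
  have hind : LinearIndependent F (EE C) := by
    rw [Fintype.linearIndependent_iff]
    intro g hg v
    have h1 : cmp C (∑ w, g w • EE C w) v = g v • EE C v := by
      have hlin : cmp C (∑ w, g w • EE C w) v = ∑ w, g w • cmp C (EE C w) v := by
        unfold cmp
        simp only [Matrix.mul_sum, Matrix.sum_mul, Matrix.mul_smul, Matrix.smul_mul, Finset.smul_sum]
        rw [Finset.sum_comm]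
        refine Finset.sum_congr rfl fun w _ => Finset.sum_congr rfl fun u _ => ?_
        rw [smul_comm (g w), smul_comm (g w)]
      rw [hlin]
      have hc : ∀ w, cmp C (EE C w) v = if w = v then EE C v else 0 := by
        intro w
        unfold cmp
        have h3 : ∀ u, EE C u * EE C w * EI C u = sF F (bf u w) • EE C w := by
          intro u
          rw [EE_comm, Matrix.smul_mul, Matrix.mul_assoc, EE_EI, Matrix.mul_one]
        simp only [h3, smul_smul]
        have h4 : ∀ u, sF F (bf u v) * sF F (bf u w) = sF F (bf u (v + w)) := fun u => by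
          rw [← sF_mul, bf_add_right]
        simp only [h4]
        rw [← Finset.sum_smul, smul_smul]
        by_cases hwv : w = v
        · rw [if_pos hwv, hwv, v2_two]
          simp only [bf_zero_right, sF_zero]
          rw [Finset.sum_const, Finset.card_univ, card_v2, nsmul_eq_mul, mul_one]
          push_cast
          rw [inv_mul_cancel₀ (pow_ne_zero _ T.two), one_smul]
        · rw [if_neg hwv]
          have h5 : ∑ u : V2 k, sF F (bf u (v + w)) = 0 := by
            have h6 := sum_sF T.two (u := v + w) (fun h => hwv (v2_eq_of_add h).symm)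
            rw [← h6]
            exact Finset.sum_congr rfl fun u _ => by rw [bf_comm]
          rw [h5, mul_zero, zero_smul]
      simp only [hc]
      rw [Finset.sum_eq_single v]
      · rw [if_pos rfl]
      · intro w _ hw; rw [if_neg hw, smul_zero]
      · intro h; exact absurd (Finset.mem_univ _) h
    rw [hg] at h1
    have h3 : cmp C (0 : Matrix ι ι F) v = 0 := by
      unfold cmp
      simp
    rw [h3] at h1
    exact (smul_eq_zero.1 h1.symm).resolve_right (EE_ne_zero C v)
  -- a basis of U
  have hspan : Submodule.span F (Set.range fun v : {v : V2 k // EE C v ∈ U} => EE C v.1) = U := by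
    apply le_antisymm
    · rw [Submodule.span_le]
      rintro _ ⟨v, rfl⟩
      exact v.2
    · intro M hM
      rw [← T.sum_cmp M]
      apply Submodule.sum_mem
      intro v _
      obtain ⟨c, hc⟩ := T.cmp_eq habs M v
      by_cases hc0 : c = 0
      · rw [hc, hc0, zero_smul]; exact Submodule.zero_mem _
      · rw [hc]
        apply Submodule.smul_mem
        have h1 := cmp_mem C hU hM v
        rw [hc] at h1
        have h3 := U.smul_mem c⁻¹ h1
        rw [smul_smul, inv_mul_cancel₀ hc0, one_smul] at h3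
        exact Submodule.subset_span ⟨⟨v, h3⟩, rfl⟩
  have hind' : LinearIndependent F (fun v : {v : V2 k // EE C v ∈ U} => EE C v.1) :=
    hind.comp Subtype.val Subtype.val_injective
  have h1 := finrank_span_eq_card hind'
  rw [hspan] at h1
  rw [h1, Nat.card_eq_fintype_card]

end Cfsg.Agent.H888.C6
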