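import Cfsg.Agent.H888.C6.QFGen
import Cfsg.Agent.GenOrth.Normal
import Cfsg.Agent.S0287
import Cfsg.Agent.S0288
import Cfsg.Agent.ClassicalGeometry.OrthCharTwo
import Cfsg.Agent.LieClassical.OrthFourCommon

/-!
# The 2-part of the order of the group generated by products of two transvections (helper888)

`IsQ.pow_dvd_card_Wq : 2 ^ (k (k - 1)) ∣ |Wq q|`.
-/

set_option autoImplicit false

namespace Cfsg.Agent.H888.C6

open Cfsg Cfsg.Agent.ClassicalGeometry.SympBasic QuadraticMap
open scoped Matrix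

variable {k : ℕ} {q : V2 k → ZMod 2}

/-- the quadratic form -/
def IsQ.form (hq : IsQ q) : QuadraticForm (ZMod 2) (V2 k) where
  toFun := q
  toFun_smul a x := by
    rcases z2 a with rfl | rfl
    · rw [zero_smul, hq.zero, mul_zero, zero_smul]
    · rw [one_smul, one_mul, one_smul]
  exists_companion' := ⟨sympBilin k (ZMod 2), fun x y => hq.add x y⟩

theorem IsQ.form_apply (hq : IsQ q) (v : V2 k) : hq.form v = q v := rfl

theorem IsQ.polar_form (hq : IsQ q) (v w : V2 k) : polar hq.form v w = bf v w := by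
  change q (v + w) - q v - q w = bf v w
  rw [hq.add]
  ring

theorem IsQ.nondeg_form (hq : IsQ q) : Cfsg.Agent.LieClassical.OrthCore.Nondeg hq.form := by
  intro x hx
  refine eq_zero_of_forall_sympForm_left fun w => ?_
  have := hx w
  rw [hq.polar_form] at this
  rw [← bf_comm] at this
  exact this

theorem aniso_two' {a b : ZMod 2} (h : Cfsg.Agent.GenOrth.Aniso a b) : ∀ z₁ z₂ : ZMod 2, z₁ ^ 2 + a * z₁ * z₂ + b * z₂ ^ 2 = 0 → z₁ = 0 ∧ z₂ = 0 := h

/-- the number of isometries -/
theorem IsQ.pow_dvd_iso (hq : IsQ q) (hk : 1 ≤ k) : 2 ^ (k * (k - 1) + 1) ∣ Nat.card (isometryGroup (ZMod 2) q) := by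
  have hone : ∀ c : ZMod 2, c ≠ 0 → c = 1 := by decide
  have hrank : Module.finrank (ZMod 2) (V2 k) = 2 * k := by
    rw [Module.finrank_fintype_fun_eq_card, Fintype.card_sum, Fintype.card_fin]; ring
  obtain ⟨e0⟩ := Cfsg.Agent.LieClassical.OrthFourCommon.exists_isometryGroup_equiv (LinearEquiv.refl (ZMod 2) (V2 k)) q q
    (fun v => rfl)
  rcases Cfsg.Agent.GenOrth.normal_form (2 * k) hq.nondeg_form hrank with
    ⟨m, hm, -⟩ | ⟨m, hm, c, hc, j, hj⟩ | ⟨m, hm, a, b, hab, c, hc, j, hj⟩
  · omega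
  · obtain rfl : m = k := by omega
    obtain ⟨e1⟩ := Cfsg.Agent.LieClassical.OrthFourCommon.exists_isometryGroup_equiv j (quadFormPlus m (ZMod 2)) q (fun v => by
      have := hj v
      rw [hone c hc, one_mul] at this
      exact this)
    rw [Nat.card_congr (e0.trans e1.symm).toEquiv, S0287.result (ZMod.card 2) m hk, pow_succ']
    exact ((dvd_refl _).mul_right _).mul_right _
  · obtain rfl : m = k - 1 := by omega
    obtain ⟨e1⟩ := Cfsg.Agent.LieClassical.OrthFourCommon.exists_isometryGroup_equiv j (quadFormMinus (k - 1) (ZMod 2) a b) q (fun v => by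
      have := hj v
      rw [hone c hc, one_mul] at this
      exact this)
    rw [Nat.card_congr (e0.trans e1.symm).toEquiv, S0288.result (ZMod.card 2) k hk a b hab, pow_succ']
    exact ((dvd_refl _).mul_right _).mul_right _

/-- the group generated by the transvections -/
def Oq (q : V2 k → ZMod 2) : Subgroup (Sp2 k) := Subgroup.closure {A | ∃ a, q a = 1 ∧ A = tv a}

/-- the inclusion into the general linear group -/
def spGL (k : ℕ) : Sp2 k →* GL (Fin k ⊕ Fin k) (ZMod 2) :=
  MonoidHom.toHomUnits (Submonoid.subtype (Matrix.symplecticGroup (Fin k) (ZMod 2)))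

theorem spGL_val (A : Sp2 k) : (spGL k A : Matrix (Fin k ⊕ Fin k) (Fin k ⊕ Fin k) (ZMod 2)) = A := rfl

theorem spGL_inj : Function.Injective (spGL k) := by
  intro A B h
  apply Subtype.ext
  have := congrArg (fun g : GL (Fin k ⊕ Fin k) (ZMod 2) => (g : Matrix (Fin k ⊕ Fin k) (Fin k ⊕ Fin k) (ZMod 2))) h
  exact this

theorem IsQ.mem_iso (_ : IsQ q) {A : Sp2 k} (hA : ∀ x, q (ac A x) = q x) : spGL k A ∈ isometryGroup (ZMod 2) q :=
  fun u _ => hA u

/-- every isometry is the image of an element of `Oq` -/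
theorem IsQ.map_Oq (hq : IsQ q) (hk : 3 ≤ k) : (Oq q).map (spGL k) = isometryGroup (ZMod 2) q := by
  have hnd : (polarBilin hq.form).Nondegenerate := by
    refine ⟨fun x hx => hq.nondeg_form x hx, fun x hx => hq.nondeg_form x fun y => ?_⟩
    rw [QuadraticMap.polar_comm]
    exact hx y
  have h1 := Cfsg.Agent.ClassicalGeometry.OrthCharTwo.closure_reflections_eq_top hq.form hnd (Or.inr (by
    rw [Fintype.card_sum, Fintype.card_fin]; omega))
  apply le_antisymm
  · rw [Subgroup.map_le_iff_le_comap, Oq, Subgroup.closure_le]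
    rintro _ ⟨a, ha, rfl⟩
    exact hq.mem_iso (hq.q_tv ha)
  · intro g hg
    have h2 : (⟨g, hg⟩ : isometryGroup (ZMod 2) q) ∈ Subgroup.closure
        {g : Cfsg.isometryGroup (ZMod 2) (⇑hq.form) | ∃ v : V2 k, hq.form v ≠ 0 ∧
          ((g : GL (Fin k ⊕ Fin k) (ZMod 2)) : Matrix (Fin k ⊕ Fin k) (Fin k ⊕ Fin k) (ZMod 2)) =
            Cfsg.reflectionMatrix (⇑hq.form) v} := by
      rw [h1]; trivial
    suffices h3 : ∀ y : isometryGroup (ZMod 2) q, y ∈ Subgroup.closure
        {g : Cfsg.isometryGroup (ZMod 2) (⇑hq.form) | ∃ v : V2 k, hq.form v ≠ 0 ∧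
          ((g : GL (Fin k ⊕ Fin k) (ZMod 2)) : Matrix (Fin k ⊕ Fin k) (Fin k ⊕ Fin k) (ZMod 2)) =
            Cfsg.reflectionMatrix (⇑hq.form) v} → (y : GL (Fin k ⊕ Fin k) (ZMod 2)) ∈ (Oq q).map (spGL k) from h3 _ h2
    intro y hy
    induction hy using Subgroup.closure_induction with
    | mem y hy =>
      obtain ⟨v, hv, hy⟩ := hy
      have hv1 : q v = 1 := (z2 (q v)).resolve_left hv
      refine ⟨tv v, Subgroup.subset_closure ⟨v, hv1, rfl⟩, ?_⟩
      apply Units.ext
      rw [hy, spGL_val]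
      apply Matrix.mulVec_injective
      funext x
      rw [Cfsg.Agent.ClassicalGeometry.Reflection.reflectionMatrix_mulVec, hq.polar_form, hq.form_apply, hv1, inv_one, one_mul]
      change ac (tv v) x = _
      rw [ac_tv, bf_comm x v, sub_eq_add_neg]
      congr 1
      exact (neg_eq_of_add_eq_zero_left (v2_two _)).symm
    | one => exact Subgroup.one_mem _
    | mul x y _ _ hx hy => exact Subgroup.mul_mem _ hx hy
    | inv x _ hx => exact Subgroup.inv_mem _ hx

/-- the index of the even subgroup is at most two -/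
theorem IsQ.card_Oq (hq : IsQ q) (hk : 3 ≤ k) : Nat.card (Oq q) = Nat.card (Wq q) ∨ Nat.card (Oq q) = 2 * Nat.card (Wq q) := by
  classical
  have hle : Wq q ≤ Oq q := by
    rw [Wq, Subgroup.closure_le]
    rintro _ ⟨a, b, ha, hb, rfl⟩
    exact Subgroup.mul_mem _ (Subgroup.subset_closure ⟨a, ha, rfl⟩) (Subgroup.subset_closure ⟨b, hb, rfl⟩)
  obtain ⟨w, hw⟩ : ∃ w : V2 k, w ≠ 0 := by
    refine ⟨Pi.single (Sum.inl ⟨0, by omega⟩) 1, ?_⟩
    intro h
    have := congrFun h (Sum.inl ⟨0, by omega⟩)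
    rw [Pi.single_eq_same] at this
    exact z2_ne this
  obtain ⟨a0, -, ha0⟩ := hq.exQ1 hk hw 0 1
  -- every element lies in one of two cosets
  have hnorm : ∀ b, q b = 1 → ∀ x ∈ Wq q, tv b * x * tv b ∈ Wq q := by
    intro b hb x hx
    refine Subgroup.closure_induction (p := fun x _ => tv b * x * tv b ∈ Wq q) ?_ ?_ ?_ ?_ hx
    · rintro _ ⟨c, d, hc, hd, rfl⟩
      have h1 : tv b * (tv c * tv d) * tv b = (tv b * tv c) * (tv d * tv b) := by group
      rw [h1]
      exact Subgroup.mul_mem _ (mem_Wq hb hc) (mem_Wq hd hb)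
    · rw [mul_one, tv_sq]; exact Subgroup.one_mem _
    · intro x y _ _ h1 h3
      have h4 : tv b * (x * y) * tv b = (tv b * x * tv b) * (tv b * y * tv b) := by
        calc tv b * (x * y) * tv b = tv b * x * 1 * y * tv b := by group
          _ = _ := by rw [← tv_sq b]; group
      rw [h4]
      exact Subgroup.mul_mem _ h1 h3
    · intro x _ h1
      have h4 : tv b * x⁻¹ * tv b = (tv b * x * tv b)⁻¹ := by
        rw [mul_inv_rev, mul_inv_rev, tv_inv, mul_assoc]
      rw [h4]
      exact Subgroup.inv_mem _ h1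
  have hcos : ∀ x ∈ Oq q, x ∈ Wq q ∨ x * tv a0 ∈ Wq q := by
    intro x hx
    induction hx using Subgroup.closure_induction with
    | mem y hy =>
      obtain ⟨b, hb, rfl⟩ := hy
      exact Or.inr (mem_Wq hb ha0)
    | one => exact Or.inl (Subgroup.one_mem _)
    | mul x y _ _ hx hy =>
      rcases hx with hx | hx <;> rcases hy with hy | hy
      · exact Or.inl (Subgroup.mul_mem _ hx hy)
      · right
        rw [mul_assoc]
        exact Subgroup.mul_mem _ hx hy
      · right
        have h1 : x * y * tv a0 = (x * tv a0) * (tv a0 * y * tv a0) := by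
          calc x * y * tv a0 = x * 1 * y * tv a0 := by group
            _ = _ := by rw [← tv_sq a0]; group
        rw [h1]
        exact Subgroup.mul_mem _ hx (hnorm a0 ha0 y hy)
      · left
        have h1 : x * y = (x * tv a0) * (tv a0 * (y * tv a0) * tv a0) := by
          calc x * y = x * 1 * y * 1 := by group
            _ = _ := by rw [← tv_sq a0]; group
        rw [h1]
        exact Subgroup.mul_mem _ hx (hnorm a0 ha0 _ hy)
    | inv x _ hx =>
      rcases hx with hx | hx
      · exact Or.inl (Subgroup.inv_mem _ hx)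
      · right
        have h1 : x⁻¹ * tv a0 = tv a0 * (x * tv a0)⁻¹ * tv a0 := by
          rw [mul_inv_rev, tv_inv]
          calc x⁻¹ * tv a0 = 1 * x⁻¹ * tv a0 := by group
            _ = _ := by rw [← tv_sq a0]; group
        rw [h1]
        exact hnorm a0 ha0 _ (Subgroup.inv_mem _ hx)
  have hidx : (Wq q).relIndex (Oq q) ≤ 2 := by
    rw [Subgroup.relIndex, Subgroup.index_eq_card]
    have hsurj : Function.Surjective (fun i : Fin 2 => ((if i = 0 then 1 else
        ⟨tv a0, Subgroup.subset_closure ⟨a0, ha0, rfl⟩⟩ : Oq q) : Oq q ⧸ (Wq q).subgroupOf (Oq q))) := by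
      intro y
      obtain ⟨⟨x, hx⟩, rfl⟩ := QuotientGroup.mk_surjective y
      rcases hcos x hx with h | h
      · refine ⟨0, ?_⟩
        simp only [if_true]
        rw [QuotientGroup.eq, Subgroup.mem_subgroupOf]
        simpa using h
      · refine ⟨1, ?_⟩
        simp only [one_ne_zero, if_false]
        rw [QuotientGroup.eq, Subgroup.mem_subgroupOf]
        change (tv a0)⁻¹ * x ∈ Wq q
        rw [tv_inv]
        have h1 : tv a0 * x = tv a0 * (x * tv a0) * tv a0 := by
          rw [mul_assoc, mul_assoc, tv_sq, mul_one]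
        rw [h1]
        exact hnorm a0 ha0 _ h
    have := Nat.card_le_card_of_surjective _ hsurj
    rwa [Nat.card_eq_fintype_card (α := Fin 2), Fintype.card_fin] at this
  have hmul := Subgroup.card_mul_index ((Wq q).subgroupOf (Oq q))
  rw [Nat.card_congr (Subgroup.subgroupOfEquivOfLe hle).toEquiv] at hmul
  have hpos : 0 < (Wq q).relIndex (Oq q) := Nat.pos_of_ne_zero (Subgroup.index_ne_zero_of_finite)
  change _ * (Wq q).relIndex (Oq q) = _ at hmul
  interval_cases h : (Wq q).relIndex (Oq q)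
  · left; omega
  · right; omega

theorem IsQ.pow_dvd_card_Wq (hq : IsQ q) (hk : 3 ≤ k) : 2 ^ (k * (k - 1)) ∣ Nat.card (Wq q) := by
  have h1 := hq.pow_dvd_iso (by omega)
  rw [← hq.map_Oq hk, Nat.card_congr (Subgroup.equivMapOfInjective _ _ spGL_inj).symm.toEquiv] at h1
  rcases hq.card_Oq hk with h | h
  · rw [h] at h1
    exact (pow_dvd_pow 2 (by omega)).trans h1
  · rw [h, pow_succ'] at h1
    exact Nat.dvd_of_mul_dvd_mul_left (by norm_num) h1

end Cfsg.Agent.H888.C6
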