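import Cfsg.Agent.H888.C6.Wcard
import Cfsg.Agent.H888.C6.PBig

/-!
# The 2-part of the order of `Y` modulo scalars (helper888)
-/

set_option autoImplicit false

namespace Cfsg.Agent.H888.C6

open Cfsg Cfsg.Geo Matrix Cfsg.Agent.ClassicalGeometry.SympBasic Cfsg.Agent.H920 Cfsg.Agent.H919

section

variable {G H : Type*} [Group G] [Group H]

/-- counting with a subdirect product -/
theorem card_two_proj (D : Subgroup (G × H)) (A : Subgroup G) (W : Subgroup H)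
    (h1 : ∀ p ∈ D, ∀ p' ∈ D, p.1 = p'.1 → p = p') (h2 : ∀ w ∈ W, ∃ g, (g, w) ∈ D) (h3 : ∀ p ∈ D, p.2 ∈ W)
    (h4 : ∀ a ∈ A, (a, (1 : H)) ∈ D) : Nat.card A * Nat.card W ∣ Nat.card G := by
  have hfst : Function.Injective ((MonoidHom.fst G H).comp D.subtype) := by
    rintro ⟨p, hp⟩ ⟨p', hp'⟩ h
    exact Subtype.ext (h1 p hp p' hp' h)
  have h5 : Nat.card D ∣ Nat.card G := by
    rw [Nat.card_congr (MonoidHom.ofInjective hfst).toEquiv]
    exact Subgroup.card_subgroup_dvd_card _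
  refine dvd_trans ?_ h5
  obtain ⟨π, hπ⟩ : ∃ π : D →* H, ∀ x : D, π x = (x : G × H).2 := ⟨(MonoidHom.snd G H).comp D.subtype, fun _ => rfl⟩
  have hr : π.range = W := by
    ext w
    constructor
    · rintro ⟨x, rfl⟩
      rw [hπ]
      exact h3 x x.2
    · intro hw
      obtain ⟨g, hg⟩ := h2 w hw
      exact ⟨⟨(g, w), hg⟩, hπ _⟩
  have h6 : Nat.card π.ker * Nat.card W = Nat.card D := by
    rw [← hr, ← Subgroup.index_ker, Subgroup.card_mul_index]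
  obtain ⟨j, hj⟩ : ∃ j : A →* D, ∀ a : A, (j a : G × H) = ((a : G), 1) :=
    ⟨(MonoidHom.prod A.subtype 1).codRestrict D fun a => h4 a a.2, fun _ => rfl⟩
  have hjk : ∀ a, j a ∈ π.ker := fun a => by
    rw [MonoidHom.mem_ker, hπ, hj]
  have hji : Function.Injective (j.codRestrict π.ker hjk) := by
    intro a b h
    have h7 : j a = j b := congrArg Subtype.val h
    have h8 := congrArg (fun x : D => (x : G × H).1) h7
    simp only [hj] at h8
    exact Subtype.ext h8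
  have h7 : Nat.card A ∣ Nat.card π.ker := by
    rw [Nat.card_congr (MonoidHom.ofInjective hji).toEquiv]
    exact Subgroup.card_subgroup_dvd_card _
  rw [← h6]
  exact Nat.mul_dvd_mul_right h7 _

end

variable {ι : Type} [Fintype ι] [DecidableEq ι] {F : Type*} [Field F] {R : Subgroup (GL ι F)} {k : ℕ}
variable {C : Coord R 2 k} {q : V2 k → ZMod 2} {Y : Subgroup (GL ι F)}

theorem ind_unique {g : GL ι F} {A B : Sp2 k} (hA : C.Ind g (sm A)) (hB : C.Ind g (sm B)) : A = B := by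
  apply ac_ext
  intro v
  obtain ⟨x, rfl⟩ := C.surj v
  obtain ⟨y, h1, h3⟩ := hA x
  obtain ⟨z, h4, h5⟩ := hB x
  have h6 : y = z := Subtype.ext (h1.symm.trans h4)
  change sm A *ᵥ C.φ x = sm B *ᵥ C.φ x
  rw [← h3, ← h5, h6]

theorem ind_self (C : Coord R 2 k) (z : R) : C.Ind (z : GL ι F) (sm (1 : Sp2 k)) := by
  intro x
  refine ⟨z * x * z⁻¹, by rw [Subgroup.coe_mul, Subgroup.coe_mul, Subgroup.coe_inv], ?_⟩
  rw [C.map_mul, C.map_mul, φ_neg_eq]
  have h5 : C.φ z + C.φ x + C.φ z = C.φ x := by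
    rw [add_comm (C.φ z), add_assoc, v2_two, add_zero]
  rw [h5]
  exact (ac_one _).symm

theorem YCore.pow_dvd_card [Finite F] (T : TC C q) [Nonempty ι] (hk : 3 ≤ k) (hY : YCore C q Y) :
    2 ^ (k * (k + 1)) ∣ Nat.card (QY Y) := by
  classical
  have hfin : Finite (GL ι F) := inferInstance
  have hq := T.isQ
  let D : Subgroup (Y × Sp2 k) :=
    { carrier := {p | p.2 ∈ Wq q ∧ C.Ind (p.1 : GL ι F) (sm p.2)}
      mul_mem' := fun {a b} ha hb => ⟨Subgroup.mul_mem _ ha.1 hb.1, ha.2.mul hb.2⟩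
      one_mem' := ⟨Subgroup.one_mem _, Coord.Ind.one C⟩
      inv_mem' := fun {a} ha => ⟨Subgroup.inv_mem _ ha.1, ha.2.invS⟩ }
  obtain ⟨D', hmem⟩ : ∃ D' : Subgroup (QY Y × Sp2 k), ∀ p : QY Y × Sp2 k, p ∈ D' ↔
      ∃ y : Y, p.2 ∈ Wq q ∧ C.Ind (y : GL ι F) (sm p.2) ∧ mkY Y y = p.1 := by
    refine ⟨D.map (MonoidHom.prodMap (mkY Y) (MonoidHom.id _)), fun p => ?_⟩
    constructor
    · rintro ⟨⟨y, A⟩, ⟨h1, h3⟩, rfl⟩
      exact ⟨y, h1, h3, rfl⟩
    · rintro ⟨y, h1, h3, h4⟩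
      exact ⟨(y, p.2), ⟨h1, h3⟩, Prod.ext h4 rfl⟩
  have key : Nat.card (AY R Y) * Nat.card (Wq q) ∣ Nat.card (QY Y) := by
    refine card_two_proj D' (AY R Y) (Wq q) ?_ ?_ ?_ ?_
    · rintro ⟨a, A⟩ ha ⟨b, B⟩ hb hab
      obtain ⟨y, -, h1, h3⟩ := (hmem _).1 ha
      obtain ⟨z, -, h4, h5⟩ := (hmem _).1 hb
      have hab' : a = b := hab
      simp only at h1 h3 h4 h5
      have h6 : (y : GL ι F) * (z : GL ι F)⁻¹ ∈ scalars ι F := mkY_eq.1 (by rw [h3, h5, hab'])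
      have h7 : C.Ind (y : GL ι F) (sm B) := by
        intro x
        obtain ⟨w, hw1, hw2⟩ := h4 x
        refine ⟨w, ?_, hw2⟩
        rw [← hw1]
        have h8 : (y : GL ι F) = ((y : GL ι F) * (z : GL ι F)⁻¹) * z := by group
        rw [h8]
        set s := (y : GL ι F) * (z : GL ι F)⁻¹
        have h9 : s * z * x * (s * z)⁻¹ = s * (z * x * (z : GL ι F)⁻¹) * s⁻¹ := by group
        rw [h9, scalars_comm h6, mul_inv_cancel_right]
      rw [hab', ind_unique h1 h7]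
    · intro A hA
      obtain ⟨g, hg, hi⟩ := hY.ind A hA
      exact ⟨mkY Y ⟨g, hg⟩, (hmem _).2 ⟨⟨g, hg⟩, hA, hi, rfl⟩⟩
    · intro p hp
      obtain ⟨y, h1, -, -⟩ := (hmem _).1 hp
      exact h1
    · intro a ha
      obtain ⟨y, hy, rfl⟩ := mem_AY.1 ha
      obtain ⟨z, hz⟩ : ∃ z : R, (z : GL ι F) = (y : GL ι F) := ⟨⟨(y : GL ι F), hy⟩, rfl⟩
      refine (hmem _).2 ⟨y, Subgroup.one_mem _, ?_, rfl⟩
      rw [← hz]
      exact ind_self C z
  rw [card_AY C hY.le] at key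
  have h5 := mul_dvd_mul (dvd_refl (2 ^ (2 * k))) (hq.pow_dvd_card_Wq hk)
  rw [← pow_add] at h5
  refine (pow_dvd_pow 2 ?_).trans (h5.trans key)
  have h6 : k * (k + 1) = k * (k - 1) + 2 * k := by
    obtain ⟨j, rfl⟩ : ∃ j, k = j + 1 := ⟨k - 1, by omega⟩
    rw [Nat.add_sub_cancel]; ring
  omega

end Cfsg.Agent.H888.C6
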